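import Mathlib
import Cfsg.Agent.PGroup.Normal
import Cfsg.Agent.TwoGroup.UniqueInvolution
import Cfsg.Agent.Coprime.Basic
import Cfsg.Agent.AbConjSolvable.Cyclic

/-!
`2`-subgroups without noncyclic abelian subgroups of order `8`.
-/

set_option autoImplicit false
set_option linter.style.haveILetI false
set_option linter.unusedSectionVars false

namespace CfsgLib.NoAbEight

open scoped commutatorElement

variable {G : Type*} [Group G] [Finite G]

/-- No noncyclic abelian subgroup of order eight. -/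
def Small (Y : Subgroup G) : Prop :=
  ∀ B : Subgroup G, B ≤ Y → IsMulCommutative B → Nat.card B = 8 → IsCyclic B

theorem Small.mono {X Y : Subgroup G} (h : Small Y) (hXY : X ≤ Y) : Small X :=
  fun B hB => h B (hB.trans hXY)

/-- The Frattini subgroup, in the ambient group. -/
def fr (T : Subgroup G) : Subgroup G := (frattini T).map T.subtype

theorem fr_le (T : Subgroup G) : fr T ≤ T := Subgroup.map_subtype_le _

theorem sq_mem_fr {T : Subgroup G} (hT : IsPGroup 2 T) {x : G} (hx : x ∈ T) : x ^ 2 ∈ fr T :=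
  ⟨(⟨x, hx⟩ : T) ^ 2, CfsgLib.PGroup.pow_prime_mem_frattini hT _, rfl⟩

theorem comm_mem_fr {T : Subgroup G} (hT : IsPGroup 2 T) {x y : G} (hx : x ∈ T) (hy : y ∈ T) :
    ⁅x, y⁆ ∈ fr T :=
  ⟨⁅(⟨x, hx⟩ : T), ⟨y, hy⟩⁆, CfsgLib.PGroup.commutatorElement_mem_frattini hT _ _, rfl⟩

theorem fr_le_of {T N : Subgroup G} (hT : IsPGroup 2 T) (hn : ∀ t ∈ T, ∀ n ∈ N, t * n * t⁻¹ ∈ N)
    (hsq : ∀ t ∈ T, t ^ 2 ∈ N) : fr T ≤ N := by
  haveI : (N.subgroupOf T).Normal := ⟨fun n hn' t => hn t t.2 n hn'⟩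
  have h : frattini T ≤ N.subgroupOf T := by
    refine CfsgLib.PGroup.frattini_le_of_elementary (p := 2) (fun a b => ?_) (fun a => hsq a a.2)
    have e : ∀ c : T ⧸ N.subgroupOf T, c⁻¹ = c := fun c => by
      induction c using QuotientGroup.induction_on with
      | H z =>
        apply inv_eq_of_mul_eq_one_left
        rw [← QuotientGroup.mk_mul, QuotientGroup.eq_one_iff, Subgroup.mem_subgroupOf, ← pow_two]
        exact hsq z z.2
    rw [← QuotientGroup.eq_one_iff, ← QuotientGroup.mk'_apply, map_commutatorElement,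
      commutatorElement_eq_one_iff_mul_comm]
    simp only [QuotientGroup.mk'_apply]
    calc (a : T ⧸ N.subgroupOf T) * b = ((a : T ⧸ N.subgroupOf T) * b)⁻¹ := (e _).symm
      _ = b * a := by rw [mul_inv_rev, e, e]
  rintro _ ⟨x, hx, rfl⟩
  exact h hx

/-- Outside a proper subgroup of a `2`-group there is an element whose square is inside. -/
theorem exists_sq_mem {Y W : Subgroup G} (hY : IsPGroup 2 Y) {x : G} (hxY : x ∈ Y) (hxW : x ∉ W) :
    ∃ y ∈ Y, y ∉ W ∧ y ^ 2 ∈ W := by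
  obtain ⟨k, hk⟩ := hY ⟨x, hxY⟩
  have hk' : x ^ 2 ^ k = 1 := congrArg Subtype.val hk
  classical
  have hex : ∃ j, x ^ 2 ^ j ∈ W := ⟨k, by rw [hk']; exact one_mem W⟩
  obtain ⟨j, hj⟩ : ∃ j, Nat.find hex = j := ⟨_, rfl⟩
  have hspec := Nat.find_spec hex
  rw [hj] at hspec
  cases j with
  | zero => rw [pow_zero, pow_one] at hspec; exact absurd hspec hxW
  | succ i =>
    refine ⟨x ^ 2 ^ i, pow_mem hxY _, Nat.find_min hex (by rw [hj]; exact Nat.lt_succ_self i), ?_⟩
    rw [← pow_mul, ← pow_succ]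
    exact hspec

theorem card_le_two_mul {C T : Subgroup G} (hCT : C ≤ T)
    (h : ∀ x ∈ T, x ∉ C → ∀ y ∈ T, y ∉ C → x⁻¹ * y ∈ C) : Nat.card T ≤ 2 * Nat.card C := by
  by_cases hex : ∃ a ∈ T, a ∉ C
  swap
  · push Not at hex
    have : T = C := le_antisymm hex hCT
    rw [this]; omega
  obtain ⟨a, haT, haC⟩ := hex
  have hidx : (C.subgroupOf T).index = 2 := by
    rw [Subgroup.index_eq_two_iff]
    refine ⟨⟨a, haT⟩, fun b => ?_⟩
    by_cases hb : (b : G) ∈ C
    · refine Or.inr ⟨Subgroup.mem_subgroupOf.2 hb, fun hba => haC ?_⟩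
      have h1 : ((b : G)⁻¹) * ((b : G) * a) ∈ C := mul_mem (inv_mem hb) hba
      rwa [inv_mul_cancel_left] at h1
    · refine Or.inl ⟨Subgroup.mem_subgroupOf.2 ?_, hb⟩
      have h1 := h (b : G)⁻¹ (inv_mem b.2) (fun hb' => hb (inv_mem_iff.1 hb')) a haT haC
      rwa [inv_inv] at h1
  have h1 := (C.subgroupOf T).card_mul_index
  rw [Nat.card_congr (Subgroup.subgroupOfEquivOfLe hCT).toEquiv, hidx] at h1
  omega

/-- The group `W ∪ x W`. -/
theorem double {Y W : Subgroup G} (hWY : W ≤ Y)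
    (hWc : W ≤ Subgroup.centralizer (Y : Set G)) {x : G} (hxY : x ∈ Y) (hxW : x ∉ W)
    (hx2 : x ^ 2 ∈ W) : ∃ B : Subgroup G, B ≤ Y ∧ IsMulCommutative B ∧ W ≤ B ∧ x ∈ B ∧
      Nat.card B = 2 * Nat.card W ∧ ∀ g ∈ B, g ∈ W ∨ x * g ∈ W := by
  have hc : ∀ w ∈ W, ∀ y ∈ Y, y * w = w * y := fun w hw y hy =>
    Subgroup.mem_centralizer_iff.1 (hWc hw) y hy
  let B : Subgroup G :=
    { carrier := {g | g ∈ W ∨ x * g ∈ W}
      one_mem' := Or.inl (one_mem W)
      mul_mem' := by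
        rintro a b (ha | ha) (hb | hb)
        · exact Or.inl (mul_mem ha hb)
        · refine Or.inr ?_
          rw [← mul_assoc, hc a ha x hxY, mul_assoc]
          exact mul_mem ha hb
        · refine Or.inr ?_
          rw [← mul_assoc]
          exact mul_mem ha hb
        · refine Or.inl ?_
          have haY : a ∈ Y := by
            simpa using mul_mem (inv_mem hxY) (hWY ha)
          have hax : a * x = x * a := by
            have h1 : a = x⁻¹ * (x * a) := by group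
            calc a * x = x⁻¹ * ((x * a) * x) := by group
              _ = x⁻¹ * (x * (x * a)) := by rw [hc _ ha x hxY]
              _ = x * a := by group
          have h2 : a * b = (x ^ 2)⁻¹ * ((x * a) * (x * b)) := by
            rw [pow_two]
            calc a * b = (x * x)⁻¹ * (x * (x * a) * b) := by group
              _ = (x * x)⁻¹ * (x * (a * x) * b) := by rw [hax]
              _ = (x * x)⁻¹ * ((x * a) * (x * b)) := by group
          rw [h2]
          exact mul_mem (inv_mem hx2) (mul_mem ha hb)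
      inv_mem' := by
        rintro a (ha | ha)
        · exact Or.inl (inv_mem ha)
        · refine Or.inr ?_
          have h1 : x * a⁻¹ = x ^ 2 * (x * a)⁻¹ := by
            have e1 := hc _ (inv_mem ha) x hxY
            rw [pow_two]
            calc x * a⁻¹ = x * ((x * a)⁻¹ * x) := by group
              _ = x * (x * (x * a)⁻¹) := by rw [e1]
              _ = x * x * (x * a)⁻¹ := by group
          rw [h1]
          exact mul_mem hx2 (inv_mem ha) }
  have hWB : W ≤ B := fun w hw => Or.inl hw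
  have hxB : x ∈ B := Or.inr (by rw [← pow_two]; exact hx2)
  have hBY : B ≤ Y := by
    rintro g (hg | hg)
    · exact hWY hg
    · simpa using mul_mem (inv_mem hxY) (hWY hg)
  have hxc : ∀ g ∈ B, x * g = g * x := by
    rintro g (hg | hg)
    · exact hc g hg x hxY
    · calc x * g = x⁻¹ * (x * (x * g)) := by group
        _ = x⁻¹ * ((x * g) * x) := by rw [hc _ hg x hxY]
        _ = g * x := by group
  have hcomm : IsMulCommutative B := by
    refine ⟨⟨fun a b => Subtype.ext ?_⟩⟩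
    show (a : G) * b = b * a
    rcases a.2 with ha | ha
    · exact (hc _ ha b (hBY b.2)).symm
    · calc (a : G) * b = x⁻¹ * ((x * a) * b) := by group
        _ = x⁻¹ * (b * (x * a)) := by rw [hc _ ha b (hBY b.2)]
        _ = x⁻¹ * (b * x) * a := by group
        _ = x⁻¹ * (x * b) * a := by rw [hxc b b.2]
        _ = b * a := by group
  have hidx : (W.subgroupOf B).index = 2 := by
    rw [Subgroup.index_eq_two_iff]
    refine ⟨⟨x, hxB⟩, fun b => ?_⟩
    by_cases hb : (b : G) ∈ W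
    · refine Or.inr ⟨Subgroup.mem_subgroupOf.2 hb, fun hbx => hxW ?_⟩
      have h1 : (b : G)⁻¹ * ((b : G) * x) ∈ W := mul_mem (inv_mem hb) hbx
      rwa [inv_mul_cancel_left] at h1
    · refine Or.inl ⟨Subgroup.mem_subgroupOf.2 ?_, hb⟩
      show (b : G) * x ∈ W
      rw [← hxc b b.2]
      exact b.2.resolve_left hb
  have hcard : Nat.card B = 2 * Nat.card W := by
    have h1 := (W.subgroupOf B).card_mul_index
    rw [Nat.card_congr (Subgroup.subgroupOfEquivOfLe hWB).toEquiv, hidx] at h1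
    omega
  exact ⟨B, hBY, hcomm, hWB, hxB, hcard, fun g hg => hg⟩

/-- The subgroup of order eight through a central subgroup of order four. -/
theorem eight {Y W : Subgroup G} (hYs : Small Y) (hWY : W ≤ Y) (hW : Nat.card W = 4)
    (hWc : W ≤ Subgroup.centralizer (Y : Set G)) {x : G} (hxY : x ∈ Y) (hxW : x ∉ W)
    (hx2 : x ^ 2 ∈ W) : ∃ B : Subgroup G, B ≤ Y ∧ IsCyclic B ∧ W ≤ B ∧ x ∈ B := by
  obtain ⟨B, hBY, hcomm, hWB, hxB, hcard, -⟩ := double hWY hWc hxY hxW hx2
  exact ⟨B, hBY, hYs B hBY hcomm (by rw [hcard, hW]), hWB, hxB⟩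

/-- A small `2`-group with a central subgroup of order four. -/
theorem small_central_four {Y W : Subgroup G} (hY : IsPGroup 2 Y) (hYs : Small Y) (hWY : W ≤ Y)
    (hW : Nat.card W = 4) (hWc : W ≤ Subgroup.centralizer (Y : Set G)) :
    IsCyclic Y ∨ Y = W := by
  by_cases hex : ∃ x ∈ Y, x ∉ W
  swap
  · push Not at hex
    exact Or.inr (le_antisymm hex hWY)
  obtain ⟨x0, hx0Y, hx0W⟩ := hex
  obtain ⟨x, hxY, hxW, hx2⟩ := exists_sq_mem hY hx0Y hx0W
  obtain ⟨B, -, hBc, hWB, -⟩ := eight hYs hWY hW hWc hxY hxW hx2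
  have hWcyc : IsCyclic W := by
    haveI := hBc
    exact isCyclic_of_injective (Subgroup.inclusion hWB) (Subgroup.inclusion_injective hWB)
  obtain ⟨w, hw⟩ := hWcyc.exists_generator
  have hwo : orderOf (w : G) = 4 := by
    rw [Subgroup.orderOf_coe, orderOf_eq_card_of_forall_mem_zpowers hw, hW]
  left
  have hamo : CfsgLib.TwoGroup.AtMostOneInvolution Y := by
    have key : ∀ u : Y, orderOf u = 2 → (u : G) = (w : G) ^ 2 := by
      intro u hu
      have huo : orderOf (u : G) = 2 := by rw [Subgroup.orderOf_coe, hu]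
      have hw2 : orderOf ((w : G) ^ 2) = 2 := by rw [orderOf_pow' _ two_ne_zero, hwo]; norm_num
      have huW : (u : G) ∈ W := by
        by_contra huW
        obtain ⟨B', -, hBc', hWB', huB'⟩ := eight hYs hWY hW hWc u.2 huW (by
          have h1 : (u : G) ^ 2 = 1 := by rw [← huo, pow_orderOf_eq_one]
          rw [h1]; exact one_mem W)
        have h2 := CfsgLib.AbConjSolvable.mem_zpowers_of_mem_cyclic hBc'
          (pow_mem (hWB' w.2) 2) huB' (hw2.trans huo.symm)
        exact huW (Subgroup.zpowers_le.2 (pow_mem w.2 2) h2)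
      have h2 := CfsgLib.AbConjSolvable.mem_zpowers_of_mem_cyclic hWcyc
        (pow_mem w.2 2) huW (hw2.trans huo.symm)
      obtain ⟨i, hi⟩ := Subgroup.mem_zpowers_iff.1 h2
      rcases Int.emod_two_eq_zero_or_one i with h3 | h3
      · exfalso
        rw [← zpow_mod_orderOf, hw2, show ((2 : ℕ) : ℤ) = 2 from rfl, h3, zpow_zero] at hi
        rw [← hi, orderOf_one] at huo
        omega
      · rw [← zpow_mod_orderOf, hw2, show ((2 : ℕ) : ℤ) = 2 from rfl, h3, zpow_one] at hi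
        exact hi.symm
    exact fun u v hu hv => Subtype.ext ((key u hu).trans (key v hv).symm)
  rcases CfsgLib.TwoGroup.cyclic_or_quaternion hY hamo with hc | ⟨k, -, ⟨e⟩⟩
  · exact hc
  haveI : NeZero (2 ^ k) := ⟨(pow_pos two_pos k).ne'⟩
  by_cases hk : k = 0
  · subst hk
    refine isCyclic_of_orderOf_eq_card (⟨(w : G), hWY w.2⟩ : Y) ?_
    rw [Subgroup.orderOf_mk, hwo, Nat.card_congr e.toEquiv, Nat.card_eq_fintype_card,
      QuaternionGroup.card]
    rfl
  exfalso
  obtain ⟨c, hc⟩ : ∃ c, e ⟨(w : G), hWY w.2⟩ = c := ⟨_, rfl⟩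
  have hco : orderOf c = 4 := by rw [← hc, e.orderOf_eq, Subgroup.orderOf_mk, hwo]
  have hcen : ∀ q, q * c = c * q := by
    intro q
    obtain ⟨y, rfl⟩ := e.surjective q
    rw [← hc, ← map_mul, ← map_mul]
    exact congrArg e (Subtype.ext (Subgroup.mem_centralizer_iff.1 (hWc w.2) (y : G) y.2))
  cases c with
  | a i =>
    have h1 := hcen (QuaternionGroup.xa 0)
    rw [QuaternionGroup.xa_mul_a, QuaternionGroup.a_mul_xa, QuaternionGroup.xa.injEq] at h1
    have h2 : (QuaternionGroup.a i : QuaternionGroup (2 ^ k)) ^ 2 = 1 := by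
      rw [pow_two, QuaternionGroup.a_mul_a, ← QuaternionGroup.a_zero]
      refine congrArg QuaternionGroup.a ?_
      linear_combination h1
    have h3 := Nat.le_of_dvd two_pos (orderOf_dvd_of_pow_eq_one h2)
    omega
  | xa i =>
    have h1 := hcen (QuaternionGroup.a 1)
    rw [QuaternionGroup.a_mul_xa, QuaternionGroup.xa_mul_a, QuaternionGroup.xa.injEq] at h1
    have h2 : ((2 : ℕ) : ZMod (2 * 2 ^ k)) = 0 := by push_cast; linear_combination -h1
    rw [ZMod.natCast_eq_zero_iff] at h2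
    have h3 := Nat.le_of_dvd two_pos h2
    have h4 : 2 ≤ 2 ^ k := Nat.le_self_pow hk 2
    omega

theorem comm_of_cyclic_or_eq {Y W : Subgroup G} (hW : Nat.card W = 4) (h : IsCyclic Y ∨ Y = W) :
    IsMulCommutative Y := by
  rcases h with h | h
  · haveI := h; exact IsCyclic.isMulCommutative
  · rw [h]
    letI := IsPGroup.commGroupOfCardEqPrimeSq (p := 2) (G := W) hW
    exact ⟨⟨fun a b => mul_comm a b⟩⟩

/-- The elements of a group of order four. -/
theorem four_cases {W : Subgroup G} (hW : Nat.card W = 4) {w0 u : G} (hw0 : w0 ∈ W) (hw01 : w0 ≠ 1)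
    (hu : u ∈ W) (hu1 : u ≠ 1) (huw : u ≠ w0) (hprod : u * w0 ≠ 1) {w : G} (hw : w ∈ W) :
    w = 1 ∨ w = w0 ∨ w = u ∨ w = u * w0 := by
  classical
  set s : Finset G := {1, w0, u, u * w0} with hs
  have hsc : s.card = 4 := by
    rw [hs, Finset.card_insert_of_notMem, Finset.card_insert_of_notMem,
      Finset.card_insert_of_notMem, Finset.card_singleton]
    · simp only [Finset.mem_singleton]
      exact fun h => hw01 (left_eq_mul.1 h)
    · simp only [Finset.mem_insert, Finset.mem_singleton, not_or]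
      exact ⟨fun h => huw h.symm, fun h => hu1 (right_eq_mul.1 h)⟩
    · simp only [Finset.mem_insert, Finset.mem_singleton, not_or]
      exact ⟨fun h => hw01 h.symm, fun h => hu1 h.symm, fun h => hprod h.symm⟩
  let _ := Fintype.ofFinite G
  have h1 : s = Finset.univ.filter (· ∈ W) := by
    refine Finset.eq_of_subset_of_card_le (fun g hg => ?_) ?_
    · rw [Finset.mem_filter]
      refine ⟨Finset.mem_univ _, ?_⟩
      simp only [hs, Finset.mem_insert, Finset.mem_singleton] at hg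
      rcases hg with rfl | rfl | rfl | rfl
      · exact one_mem W
      · exact hw0
      · exact hu
      · exact mul_mem hu hw0
    · rw [hsc, ← hW, Nat.card_eq_fintype_card, Fintype.card_subtype]
  have hmem : w ∈ s := by rw [h1, Finset.mem_filter]; exact ⟨Finset.mem_univ _, hw⟩
  simpa [hs] using hmem

/-- Four-groups. -/
theorem two_coset {W : Subgroup G} (hW : Nat.card W = 4) {x w0 : G} (hw0 : w0 ∈ W) (hw01 : w0 ≠ 1)
    (hxw0 : x * w0 * x⁻¹ = w0) (hn : ∀ w ∈ W, x * w * x⁻¹ ∈ W) {w : G} (hw : w ∈ W) :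
    x * w * x⁻¹ = w ∨ x * w * x⁻¹ = w * w0 := by
  rcases eq_or_ne w 1 with rfl | hw1
  · left; simp
  rcases eq_or_ne w w0 with rfl | hww
  · exact Or.inl hxw0
  rcases eq_or_ne (w * w0) 1 with hcase | hcase
  · left
    rw [eq_inv_of_mul_eq_one_left hcase, ← conj_inv, hxw0]
  rcases four_cases hW hw0 hw01 hw hw1 hww hcase (hn w hw) with h | h | h | h
  · exact absurd (conj_eq_one_iff.1 h) hw1
  · exfalso
    apply hww
    calc w = x⁻¹ * (x * w * x⁻¹) * x := by group
      _ = x⁻¹ * (x * w0 * x⁻¹) * x := by rw [h, hxw0]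
      _ = w0 := by group
  · exact Or.inl h
  · exact Or.inr h

theorem cent_sq {W : Subgroup G} (hW : Nat.card W = 4) {x w0 : G} (hw0 : w0 ∈ W) (hw01 : w0 ≠ 1)
    (hw02 : w0 * w0 = 1)
    (hxw0 : x * w0 * x⁻¹ = w0) (hn : ∀ w ∈ W, x * w * x⁻¹ ∈ W) {w : G} (hw : w ∈ W) :
    x ^ 2 * w * (x ^ 2)⁻¹ = w := by
  have e : x ^ 2 * w * (x ^ 2)⁻¹ = x * (x * w * x⁻¹) * x⁻¹ := by rw [pow_two]; group
  rw [e]
  rcases two_coset hW hw0 hw01 hxw0 hn hw with h | h
  · rw [h, h]
  · rw [h, ← conj_mul, h, hxw0, mul_assoc, hw02, mul_one]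

theorem cent_pair {W : Subgroup G} (hW : Nat.card W = 4) {x y w0 : G} (hw0 : w0 ∈ W) (hw01 : w0 ≠ 1)
    (hxw0 : x * w0 * x⁻¹ = w0) (hn : ∀ w ∈ W, x * w * x⁻¹ ∈ W)
    (hyw0 : y * w0 * y⁻¹ = w0) (hny : ∀ w ∈ W, y * w * y⁻¹ ∈ W)
    {u : G} (hu : u ∈ W) (hxu : x * u * x⁻¹ ≠ u) (hyu : y * u * y⁻¹ ≠ u) :
    (x⁻¹ * y) * u * (x⁻¹ * y)⁻¹ = u := by
  have h1 := (two_coset hW hw0 hw01 hxw0 hn hu).resolve_left hxu
  have h2 := (two_coset hW hw0 hw01 hyw0 hny hu).resolve_left hyu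
  calc (x⁻¹ * y) * u * (x⁻¹ * y)⁻¹ = x⁻¹ * (y * u * y⁻¹) * x := by group
    _ = x⁻¹ * (x * u * x⁻¹) * x := by rw [h1, h2]
    _ = u := by group

theorem cent_odd {W : Subgroup G} (hW : Nat.card W = 4) {x w0 : G} (hw0 : w0 ∈ W) (hw01 : w0 ≠ 1)
    (hw02 : w0 * w0 = 1) (hxo : (orderOf x).Coprime 2)
    (hxw0 : x * w0 * x⁻¹ = w0) (hn : ∀ w ∈ W, x * w * x⁻¹ ∈ W) {w : G} (hw : w ∈ W) :
    x * w * x⁻¹ = w := by
  have h2 : Commute (x ^ 2) w :=
    mul_inv_eq_iff_eq_mul.1 (cent_sq hW hw0 hw01 hw02 hxw0 hn hw)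
  obtain ⟨m, hm⟩ := exists_pow_eq_self_of_coprime hxo.symm
  have h3 := h2.pow_left m
  rw [hm] at h3
  exact mul_inv_eq_iff_eq_mul.2 h3

/-- The centraliser of a normal subgroup of order four has index at most two. -/
theorem centralizer_four {T W : Subgroup G} (hT : IsPGroup 2 T) (hWT : W ≤ T) (hW : Nat.card W = 4)
    (hn : ∀ t ∈ T, ∀ w ∈ W, t * w * t⁻¹ ∈ W) :
    (∀ x ∈ T, x ^ 2 ∈ Subgroup.centralizer (W : Set G)) ∧
      Nat.card T ≤ 2 * Nat.card (T ⊓ Subgroup.centralizer (W : Set G) : Subgroup G) := by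
  haveI : (W.subgroupOf T).Normal := ⟨fun w hw t => hn t t.2 w hw⟩
  have hne : W.subgroupOf T ≠ ⊥ := fun h => by
    have h1 := Nat.card_congr (Subgroup.subgroupOfEquivOfLe hWT).toEquiv
    rw [h, Subgroup.card_bot, hW] at h1
    omega
  obtain ⟨z, hz, hz1⟩ := (Subgroup.bot_or_exists_ne_one _).resolve_left
    (CfsgLib.PGroup.inf_center_ne_bot hT (W.subgroupOf T) hne)
  obtain ⟨j, hj⟩ := IsPGroup.iff_orderOf.1 hT z
  have hj0 : j ≠ 0 := fun h => hz1 (orderOf_eq_one_iff.1 (by rw [hj, h, pow_zero]))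
  set w0 : G := ((z ^ 2 ^ (j - 1) : T) : G) with hw0d
  have hzo : orderOf (z ^ 2 ^ (j - 1)) = 2 := by
    rw [orderOf_pow' z (pow_pos two_pos _).ne', hj,
      Nat.gcd_eq_right (pow_dvd_pow 2 (Nat.sub_le j 1)), Nat.pow_div (Nat.sub_le j 1) two_pos,
      show j - (j - 1) = 1 by omega, pow_one]
  have hw0o : orderOf w0 = 2 := by rw [hw0d, Subgroup.orderOf_coe, hzo]
  have hw0W : w0 ∈ W := pow_mem (show z ∈ W.subgroupOf T from hz.1) (2 ^ (j - 1))
  have hw01 : w0 ≠ 1 := fun h => by rw [h, orderOf_one] at hw0o; omega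
  have hw02 : w0 * w0 = 1 := by rw [← pow_two, ← hw0o, pow_orderOf_eq_one]
  have hfix : ∀ t ∈ T, t * w0 * t⁻¹ = w0 := fun t ht => by
    refine mul_inv_eq_iff_eq_mul.2 ?_
    exact congrArg Subtype.val
      (Subgroup.mem_center_iff.1 (pow_mem hz.2 (2 ^ (j - 1))) ⟨t, ht⟩)
  have hmem : ∀ g, (∀ w ∈ W, g * w * g⁻¹ = w) → g ∈ Subgroup.centralizer (W : Set G) := fun g hg =>
    Subgroup.mem_centralizer_iff.2 fun w hw => (mul_inv_eq_iff_eq_mul.1 (hg w hw)).symm
  refine ⟨fun x hx => hmem _ fun w hw => cent_sq hW hw0W hw01 hw02 (hfix x hx) (hn x hx) hw, ?_⟩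
  -- an element generating `W` together with `w0`
  obtain ⟨u, hu, hu1, huw, hprod, hfull⟩ : ∃ u ∈ W, u ≠ 1 ∧ u ≠ w0 ∧ u * w0 ≠ 1 ∧
      ∀ g, g * w0 * g⁻¹ = w0 → g * u * g⁻¹ = u → g ∈ Subgroup.centralizer (W : Set G) := by
    obtain ⟨u, hu, hu'⟩ : ∃ u ∈ W, u ∉ Subgroup.zpowers w0 := by
      by_contra hcon
      push Not at hcon
      have h1 := Nat.le_of_dvd Nat.card_pos (Subgroup.card_dvd_of_le (show W ≤ Subgroup.zpowers w0 from hcon))
      rw [hW, Nat.card_zpowers, hw0o] at h1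
      omega
    have hu1 : u ≠ 1 := fun h => hu' (h ▸ one_mem _)
    have huw : u ≠ w0 := fun h => hu' (h ▸ Subgroup.mem_zpowers w0)
    have hprod : u * w0 ≠ 1 := fun h => hu' (by
      rw [eq_inv_of_mul_eq_one_left h]; exact inv_mem (Subgroup.mem_zpowers w0))
    refine ⟨u, hu, hu1, huw, hprod, fun g hg0 hgu => hmem g fun w hw => ?_⟩
    rcases four_cases hW hw0W hw01 hu hu1 huw hprod hw with rfl | rfl | rfl | rfl
    · simp
    · exact hg0
    · exact hgu
    · rw [← conj_mul, hgu, hg0]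
  refine card_le_two_mul inf_le_left fun x hx hxC y hy hyC => ⟨Subgroup.mul_mem _ (Subgroup.inv_mem _ hx) hy, hfull _ ?_ ?_⟩
  · exact hfix _ (mul_mem (inv_mem hx) hy)
  · exact cent_pair hW hw0W hw01 (hfix x hx) (hn x hx) (hfix y hy) (hn y hy) hu
      (fun h => hxC ⟨hx, hfull x (hfix x hx) h⟩) (fun h => hyC ⟨hy, hfull y (hfix y hy) h⟩)

/-- An element of odd order centralises a cyclic `2`-group it normalises. -/
theorem cyclic_two_centralized {T : Subgroup G} [T.Normal] (hT : IsPGroup 2 T) (hc : IsCyclic T)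
    {h : G} (ho : (orderOf h).Coprime 2) {t : G} (ht : t ∈ T) : h * t = t * h := by
  haveI := hc
  let φ : G →* MulAut T := MulAut.conjNormal
  obtain ⟨n, hn⟩ := IsPGroup.iff_card.1 hT
  have hd : orderOf (φ h) ∣ 2 ^ n := by
    refine (orderOf_dvd_natCard (φ h)).trans ?_
    rw [IsCyclic.card_mulAut, hn]
    rcases Nat.eq_zero_or_pos n with rfl | hn0
    · simp
    rw [Nat.totient_prime_pow Nat.prime_two hn0]
    simpa using pow_dvd_pow 2 (Nat.sub_le n 1)
  have h1 : φ h = 1 := orderOf_eq_one_iff.1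
    (Nat.eq_one_of_dvd_coprimes (ho.pow_right n) (orderOf_map_dvd φ h) hd)
  have h2 := congrArg (fun e : MulAut T => ((e ⟨t, ht⟩ : T) : G)) h1
  simp only [φ, MulAut.conjNormal_apply, MulAut.one_apply] at h2
  exact mul_inv_eq_iff_eq_mul.1 h2

end CfsgLib.NoAbEight
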