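import Mathlib
import Cfsg.Agent.NoAbEight.Tools

/-!
Automorphisms of odd order of `2`-groups without noncyclic abelian subgroups of order `8`.
-/

set_option autoImplicit false
set_option linter.style.haveILetI false
set_option linter.unusedSectionVars false

namespace CfsgLib.NoAbEight

open scoped commutatorElement

variable {G : Type*} [Group G] [Finite G]

/-- An element of odd order fixing `c` and mapping `t` to `t * c`, `c` a `2`-element, fixes `t`. -/
theorem odd_stab {d t c : G} {n : ℕ} (ho : (orderOf d).Coprime 2) (hdc : d * c = c * d)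
    (ht : d * t * d⁻¹ = t * c) (hc : c ^ 2 ^ n = 1) : c = 1 := by
  have h : ∀ j : ℕ, d ^ j * t * (d ^ j)⁻¹ = t * c ^ j := by
    intro j
    induction j with
    | zero => simp
    | succ j ih =>
      calc d ^ (j + 1) * t * (d ^ (j + 1))⁻¹ = d * (d ^ j * t * (d ^ j)⁻¹) * d⁻¹ := by
            rw [pow_succ']; group
        _ = (d * t * d⁻¹) * (d * c ^ j * d⁻¹) := by rw [ih]; group
        _ = t * c * c ^ j := by rw [ht, (Commute.pow_right hdc j).eq, mul_inv_cancel_right]
        _ = t * c ^ (j + 1) := by rw [mul_assoc, ← pow_succ']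
  have h1 := h (orderOf d)
  rw [pow_orderOf_eq_one, one_mul, inv_one, mul_one, left_eq_mul] at h1
  exact orderOf_eq_one_iff.1 (Nat.eq_one_of_dvd_coprimes (ho.pow_right n)
    (orderOf_dvd_of_pow_eq_one h1) (orderOf_dvd_of_pow_eq_one hc))

theorem pow_eq_one_of_mem {T : Subgroup G} (hT : IsPGroup 2 T) {c : G} (hc : c ∈ T) :
    ∃ n : ℕ, c ^ 2 ^ n = 1 := by
  obtain ⟨n, hn⟩ := hT ⟨c, hc⟩
  exact ⟨n, congrArg Subtype.val hn⟩

instance fr_normal (T : Subgroup G) [T.Normal] : (fr T).Normal := by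
  unfold fr; infer_instance

theorem fr_isPGroup {T : Subgroup G} (hT : IsPGroup 2 T) : IsPGroup 2 (fr T) := hT.to_le (fr_le T)

theorem fr_card_lt {T : Subgroup G} (hT : T ≠ ⊥) : Nat.card (fr T) < Nat.card T := by
  haveI : Nontrivial T := (Subgroup.nontrivial_iff_ne_bot T).2 hT
  refine lt_of_le_of_ne (Nat.le_of_dvd Nat.card_pos (Subgroup.card_dvd_of_le (fr_le T))) fun h => ?_
  have h1 : frattini T = ⊤ := Subgroup.eq_top_of_card_eq _ (by
    rw [← h, fr, Subgroup.card_subtype])
  exact CfsgLib.PGroup.frattini_ne_top h1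

theorem four_le_of_dvd {T : Subgroup G} (hT : IsPGroup 2 T) :
    Nat.card T ∣ 2 ∨ 4 ∣ Nat.card T := by
  obtain ⟨n, hn⟩ := IsPGroup.iff_card.1 hT
  rw [hn]
  rcases Nat.lt_or_ge n 2 with h | h
  · exact Or.inl ((pow_dvd_pow 2 (show n ≤ 1 by omega)).trans (by norm_num))
  · exact Or.inr (dvd_trans (by norm_num) (pow_dvd_pow 2 h))

/-- A small Frattini subgroup is abelian. -/
theorem fr_comm {T : Subgroup G} (hT : IsPGroup 2 T) (hs : Small (fr T)) :
    IsMulCommutative (fr T) := by
  obtain ⟨n, hn⟩ := IsPGroup.iff_card.1 (fr_isPGroup hT)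
  rcases Nat.lt_or_ge n 3 with h3 | h3
  · interval_cases n
    · haveI : Subsingleton (fr T) := (Nat.card_eq_one_iff_unique.1 (hn.trans (pow_zero 2))).1
      exact ⟨⟨fun a b => Subsingleton.elim _ _⟩⟩
    · haveI := isCyclic_of_prime_card (p := 2) (hn.trans (pow_one 2))
      exact IsCyclic.isMulCommutative
    · letI := IsPGroup.commGroupOfCardEqPrimeSq (p := 2) (G := fr T) hn
      exact ⟨⟨fun a b => mul_comm a b⟩⟩
  haveI : ((fr T).subgroupOf T).Normal := by
    rw [fr, Subgroup.subgroupOf, Subgroup.comap_map_eq_self_of_injective T.subtype_injective]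
    infer_instance
  obtain ⟨K, hKn, hKle, hKc⟩ := CfsgLib.PGroup.exists_normal_card_pow hT ((fr T).subgroupOf T)
    (k := 2) (by
      rw [Nat.card_congr (Subgroup.subgroupOfEquivOfLe (fr_le T)).toEquiv, hn]
      exact pow_dvd_pow 2 (by omega))
  set W := K.map T.subtype with hWd
  have hW : Nat.card W = 4 := by rw [hWd, Subgroup.card_subtype, hKc]; norm_num
  have hWfr : W ≤ fr T := by
    rintro _ ⟨x, hx, rfl⟩
    exact hKle hx
  have hWn : ∀ t ∈ T, ∀ w ∈ W, t * w * t⁻¹ ∈ W := by
    rintro t ht _ ⟨x, hx, rfl⟩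
    exact ⟨_, hKn.conj_mem x hx ⟨t, ht⟩, rfl⟩
  obtain ⟨hsq, -⟩ := centralizer_four hT (hWfr.trans (fr_le T)) hW hWn
  have hle : fr T ≤ T ⊓ Subgroup.centralizer (W : Set G) := by
    refine fr_le_of hT (fun t ht c hc => ⟨Subgroup.mul_mem _ (Subgroup.mul_mem _ ht hc.1)
      (Subgroup.inv_mem _ ht), ?_⟩) fun t ht => ⟨Subgroup.pow_mem _ ht 2, hsq t ht⟩
    refine Subgroup.mem_centralizer_iff.2 fun w hw => ?_
    have hw' : t⁻¹ * w * t ∈ W := by simpa using hWn t⁻¹ (inv_mem ht) w hw
    have h1 : (t⁻¹ * w * t) * c = c * (t⁻¹ * w * t) := Subgroup.mem_centralizer_iff.1 hc.2 _ hw'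
    calc w * (t * c * t⁻¹) = t * ((t⁻¹ * w * t) * c) * t⁻¹ := by group
      _ = t * (c * (t⁻¹ * w * t)) * t⁻¹ := by rw [h1]
      _ = t * c * t⁻¹ * w := by group
  exact comm_of_cyclic_or_eq hW (small_central_four (fr_isPGroup hT) hs hWfr hW
    (Subgroup.le_centralizer_iff.1 (hle.trans inf_le_right)))

/-- A subgroup of order four, normal in `G`, inside a small Frattini subgroup. -/
theorem exists_four_normal {T : Subgroup G} [T.Normal] (hT : IsPGroup 2 T) (hs : Small (fr T))
    (h4 : 4 ≤ Nat.card (fr T)) :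
    ∃ W : Subgroup G, W.Normal ∧ W ≤ fr T ∧ Nat.card W = 4 ∧ (IsCyclic (fr T) ∨ fr T = W) := by
  haveI := fr_comm hT hs
  have h4' : 4 ∣ Nat.card (fr T) := (four_le_of_dvd (fr_isPGroup hT)).resolve_left fun h => by
    have := Nat.le_of_dvd two_pos h
    omega
  obtain ⟨W0, hW0⟩ := Sylow.exists_subgroup_card_pow_prime 2 (G := fr T) (n := 2) (by simpa using h4')
  have hW0le : W0.map (fr T).subtype ≤ fr T := Subgroup.map_subtype_le _
  have hW0c : Nat.card (W0.map (fr T).subtype) = 4 := by
    rw [Subgroup.card_subtype, hW0]; norm_num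
  rcases small_central_four (fr_isPGroup hT) hs hW0le hW0c (fun w hw =>
    Subgroup.mem_centralizer_iff.2 fun y hy => congrArg Subtype.val
      ((fr_comm hT hs).is_comm.comm ⟨y, hy⟩ ⟨w, hW0le hw⟩)) with hc | heq
  · refine ⟨_, ⟨fun w hw g => ?_⟩, hW0le, hW0c, Or.inl hc⟩
    have hWcyc : IsCyclic (W0.map (fr T).subtype) := by
      haveI := hc
      exact isCyclic_of_injective (Subgroup.inclusion hW0le) (Subgroup.inclusion_injective hW0le)
    have hgw : g * w * g⁻¹ ∈ fr T := Subgroup.Normal.conj_mem inferInstance w (hW0le hw) g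
    exact Subgroup.zpowers_le.2 hw (CfsgLib.AbConjSolvable.mem_zpowers_of_mem_cyclic hc (hW0le hw)
      hgw (orderOf_injective (MulAut.conj g).toMonoidHom (MulAut.conj g).injective w).symm)
  · rw [← heq] at hW0c
    exact ⟨fr T, inferInstance, le_rfl, hW0c, Or.inr rfl⟩

/-- The data of a quaternion group of order eight. -/
structure EightData (T : Subgroup G) (z y y' : G) : Prop where
  card : Nat.card T = 8
  amo : CfsgLib.TwoGroup.AtMostOneInvolution T
  z_mem : z ∈ T
  z_sq : z * z = 1
  z_ne : z ≠ 1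
  z_fr : ∀ f ∈ fr T, f = 1 ∨ f = z
  z_central : ∀ g : G, g * z = z * g
  y_mem : y ∈ T
  y'_mem : y' ∈ T
  conj_y : y' * y * y'⁻¹ = y * z
  conj_y' : y * y' * y⁻¹ = y' * z
  gen : ∀ g : G, g * y = y * g → g * y' = y' * g → g ∈ Subgroup.centralizer (T : Set G)

theorem EightData.not_comm {T : Subgroup G} {z y y' : G} (h : EightData T z y y') :
    ¬ IsMulCommutative T := by
  intro hc
  have h1 : y' * y = y * y' := congrArg Subtype.val (hc.is_comm.comm ⟨y', h.y'_mem⟩ ⟨y, h.y_mem⟩)
  have h2 := h.conj_y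
  rw [h1, mul_inv_cancel_right, left_eq_mul] at h2
  exact h.z_ne h2

/-- Acting trivially modulo the centre means acting as an inner automorphism. -/
theorem EightData.inner {T : Subgroup G} {z y y' : G} (h : EightData T z y y') {g : G}
    (hy : g * y * g⁻¹ = y ∨ g * y * g⁻¹ = y * z)
    (hy' : g * y' * g⁻¹ = y' ∨ g * y' * g⁻¹ = y' * z) :
    ∃ t ∈ T, t⁻¹ * g ∈ Subgroup.centralizer (T : Set G) := by
  have key : ∀ t : G, g * y * g⁻¹ = t * y * t⁻¹ → g * y' * g⁻¹ = t * y' * t⁻¹ →
      t⁻¹ * g ∈ Subgroup.centralizer (T : Set G) := by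
    intro t h1 h2
    refine h.gen _ ?_ ?_
    · calc t⁻¹ * g * y = t⁻¹ * (g * y * g⁻¹) * g := by group
        _ = y * (t⁻¹ * g) := by rw [h1]; group
    · calc t⁻¹ * g * y' = t⁻¹ * (g * y' * g⁻¹) * g := by group
        _ = y' * (t⁻¹ * g) := by rw [h2]; group
  rcases hy with hy | hy <;> rcases hy' with hy' | hy'
  · exact ⟨1, one_mem T, key 1 (by simpa using hy) (by simpa using hy')⟩
  · exact ⟨y, h.y_mem, key y (by rw [hy, mul_inv_cancel_right]) (by rw [hy', h.conj_y'])⟩
  · exact ⟨y', h.y'_mem, key y' (by rw [hy, h.conj_y]) (by rw [hy', mul_inv_cancel_right])⟩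
  · refine ⟨y * y', mul_mem h.y_mem h.y'_mem, key _ ?_ ?_⟩
    · rw [hy]
      calc y * z = y * (y * z) * y⁻¹ := by
            rw [mul_assoc y (y * z), mul_assoc y z, ← h.z_central y⁻¹, mul_inv_cancel_left]
        _ = y * (y' * y * y'⁻¹) * y⁻¹ := by rw [h.conj_y]
        _ = y * y' * y * (y * y')⁻¹ := by group
    · rw [hy', ← h.conj_y']
      group

/-- A small `2`-group moved by an element of odd order. -/
theorem aut_small {T : Subgroup G} [T.Normal] (hT : IsPGroup 2 T) (hs : Small T) {d : G}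
    (ho : (orderOf d).Coprime 2) (hd : ∃ t ∈ T, d * t ≠ t * d) :
    (Nat.card T = 4 ∧ IsMulCommutative T ∧ ¬ IsCyclic T) ∨ ∃ z y y', EightData T z y y' := by
  obtain ⟨t0, ht0, hmov⟩ := hd
  have hTnc : ¬ IsCyclic T := fun hc => hmov (cyclic_two_centralized hT hc ho ht0)
  obtain ⟨n, hn⟩ := IsPGroup.iff_card.1 hT
  rcases Nat.lt_or_ge n 3 with h3 | h3
  · left
    interval_cases n
    · haveI : Subsingleton T := (Nat.card_eq_one_iff_unique.1 (hn.trans (pow_zero 2))).1
      exact absurd isCyclic_of_subsingleton hTnc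
    · exact absurd (isCyclic_of_prime_card (p := 2) (hn.trans (pow_one 2))) hTnc
    · refine ⟨by rw [hn]; norm_num, ?_, hTnc⟩
      letI := IsPGroup.commGroupOfCardEqPrimeSq (p := 2) (G := T) hn
      exact ⟨⟨fun a b => mul_comm a b⟩⟩
  right
  have h8 : 8 ≤ Nat.card T := by
    rw [hn]
    exact le_trans (by norm_num) (Nat.pow_le_pow_right two_pos h3)
  have hfs : Small (fr T) := hs.mono (fr_le T)
  rcases Nat.lt_or_ge (Nat.card (fr T)) 4 with hf | hf
  swap
  · -- a large Frattini subgroup is impossible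
    exfalso
    obtain ⟨W, hWn, hWfr, hW, hor⟩ := exists_four_normal hT hfs hf
    haveI := hWn
    obtain ⟨hsq, hidx⟩ := centralizer_four hT (hWfr.trans (fr_le T)) hW
      (fun t _ w hw => hWn.conj_mem w hw t)
    set C := T ⊓ Subgroup.centralizer (W : Set G) with hCd
    haveI : C.Normal := inferInstance
    have hCp : IsPGroup 2 C := hT.to_le inf_le_left
    have hfrC : fr T ≤ C := fr_le_of hT (fun t _ c hc => Subgroup.Normal.conj_mem inferInstance c hc t)
      fun t ht => ⟨Subgroup.pow_mem _ ht 2, hsq t ht⟩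
    rcases small_central_four hCp (hs.mono inf_le_left) (hWfr.trans hfrC) hW
      (Subgroup.le_centralizer_iff.1 inf_le_right) with hc | heq
    · have hCc : ∀ c ∈ C, d * c = c * d := fun c hc' => cyclic_two_centralized hCp hc ho hc'
      have hidx2 : (C.subgroupOf T).index ≤ 2 := by
        have h1 := (C.subgroupOf T).card_mul_index
        rw [Nat.card_congr (Subgroup.subgroupOfEquivOfLe (inf_le_left : C ≤ T)).toEquiv] at h1
        nlinarith [Nat.card_pos (α := C)]
      have hdt : d * t0 * d⁻¹ ∈ T := Subgroup.Normal.conj_mem inferInstance t0 ht0 d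
      have hcC : t0⁻¹ * (d * t0 * d⁻¹) ∈ C := by
        by_cases htC : t0 ∈ C
        · rw [hCc t0 htC, mul_inv_cancel_right, inv_mul_cancel]; exact one_mem C
        have hidx' : (C.subgroupOf T).index = 2 := by
          rcases Nat.lt_or_ge (C.subgroupOf T).index 2 with h | h
          · exfalso
            have h1 : (C.subgroupOf T).index = 1 := by
              have h0 := (C.subgroupOf T).index_ne_zero_of_finite
              omega
            exact htC (Subgroup.subgroupOf_eq_top.1 (Subgroup.index_eq_one.1 h1) ht0)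
          · omega
        exact (Subgroup.mul_mem_iff_of_index_two hidx' (a := ⟨t0⁻¹, inv_mem ht0⟩) (b := ⟨_, hdt⟩)).2
          ⟨fun h => absurd (inv_mem_iff.1 (Subgroup.mem_subgroupOf.1 h)) htC, fun h => absurd (by
            have h1 : t0 = d⁻¹ * (d * t0 * d⁻¹) * d := by group
            rw [h1]
            simpa using Subgroup.Normal.conj_mem inferInstance _ (Subgroup.mem_subgroupOf.1 h) d⁻¹) htC⟩
      obtain ⟨m, hm⟩ := pow_eq_one_of_mem hCp hcC
      have h1 := odd_stab (t := t0) ho (hCc _ hcC) (by group) hm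
      rw [inv_mul_eq_one] at h1
      exact hmov (mul_inv_eq_iff_eq_mul.1 h1.symm)
    · apply hTnc
      refine CfsgLib.PGroup.isCyclic_of_frattini_index (p := 2) ?_
      have h1 := (frattini T).card_mul_index
      have h2 : Nat.card (fr T) = Nat.card (frattini T) := Subgroup.card_subtype _ _
      rw [← h2] at h1
      have h5 : Nat.card T ≤ 8 := by rw [heq, hW] at hidx; omega
      have h6 : (frattini T).index ≤ 2 := by nlinarith
      have h7 := (frattini T).index_ne_zero_of_finite
      rcases Nat.lt_or_ge (frattini T).index 2 with h | h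
      · rw [show (frattini T).index = 1 by omega]; exact one_dvd _
      · rw [show (frattini T).index = 2 by omega]
  -- small Frattini subgroup
  have hfr2 : Nat.card (fr T) ∣ 2 := (four_le_of_dvd (fr_isPGroup hT)).resolve_right fun h => by
    have := Nat.le_of_dvd Nat.card_pos h
    omega
  have hfsq : ∀ f ∈ fr T, f * f = 1 := fun f hf' => by
    rw [← pow_two]
    exact orderOf_dvd_iff_pow_eq_one.1 (((fr T).orderOf_dvd_natCard hf').trans hfr2)
  have hexp : ∀ t ∈ T, t ^ 4 = 1 := fun t ht => by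
    rw [show (4 : ℕ) = 2 * 2 from rfl, pow_mul, pow_two]
    exact hfsq _ (sq_mem_fr hT ht)
  have hno8 : ∀ B : Subgroup G, B ≤ T → IsCyclic B → Nat.card B < 8 := by
    intro B hB hBc
    obtain ⟨g, hg⟩ := hBc.exists_generator
    rw [← orderOf_eq_card_of_forall_mem_zpowers hg, ← Subgroup.orderOf_coe]
    exact Nat.lt_of_le_of_lt (Nat.le_of_dvd (by norm_num) (orderOf_dvd_of_pow_eq_one (hexp g (hB g.2))))
      (by norm_num)
  have hTnab : ¬ IsMulCommutative T := by
    intro hc
    obtain ⟨B0, hB0⟩ := Sylow.exists_subgroup_card_pow_prime 2 (G := T) (n := 3)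
      (hn ▸ pow_dvd_pow 2 h3)
    have hB0c : IsMulCommutative (B0.map T.subtype) := by
      haveI := hc
      refine ⟨⟨fun a b => Subtype.ext ?_⟩⟩
      show (a : G) * b = b * a
      exact congrArg Subtype.val (hc.is_comm.comm
        (⟨(a : G), Subgroup.map_subtype_le _ a.2⟩ : T) (⟨(b : G), Subgroup.map_subtype_le _ b.2⟩ : T))
    have h1 := hno8 _ (Subgroup.map_subtype_le B0)
      (hs _ (Subgroup.map_subtype_le B0) hB0c (by rw [Subgroup.card_subtype, hB0]; norm_num))
    rw [Subgroup.card_subtype, hB0] at h1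
    norm_num at h1
  obtain ⟨z, hzfr, hz1⟩ := (Subgroup.bot_or_exists_ne_one (fr T)).resolve_left fun hb => hTnab
    ⟨⟨fun a b => Subtype.ext (commutatorElement_eq_one_iff_mul_comm.1
      (Subgroup.mem_bot.1 (hb ▸ comm_mem_fr hT a.2 b.2)))⟩⟩
  have hzT : z ∈ T := fr_le T hzfr
  have hzfr' : ∀ f ∈ fr T, f = 1 ∨ f = z := by
    intro f hf'
    have hc2 : Nat.card (fr T) = 2 := by
      rcases (Nat.dvd_prime Nat.prime_two).1 hfr2 with h | h
      · exact absurd (Subgroup.mem_bot.1 (Subgroup.eq_bot_of_card_eq _ h ▸ hzfr)) hz1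
      · exact h
    rw [Nat.card_eq_two_iff' (⟨1, one_mem _⟩ : fr T)] at hc2
    obtain ⟨u, -, hu⟩ := hc2
    by_cases hf1 : f = 1
    · exact Or.inl hf1
    · right
      exact congrArg Subtype.val ((hu ⟨f, hf'⟩ fun h => hf1 (congrArg Subtype.val h)).trans
        (hu ⟨z, hzfr⟩ fun h => hz1 (congrArg Subtype.val h)).symm)
  have hzc : ∀ g : G, g * z = z * g := by
    intro g
    rcases hzfr' _ (Subgroup.Normal.conj_mem inferInstance z hzfr g) with h | h
    · exact absurd (conj_eq_one_iff.1 h) hz1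
    · exact mul_inv_eq_iff_eq_mul.1 h
  -- the element moved modulo the Frattini subgroup
  have hmov' : t0⁻¹ * (d * t0 * d⁻¹) ∉ fr T := fun h => by
    obtain ⟨m, hm⟩ := pow_eq_one_of_mem (fr_isPGroup hT) h
    rcases hzfr' _ h with h1 | h1
    · rw [inv_mul_eq_one] at h1; exact hmov (mul_inv_eq_iff_eq_mul.1 h1.symm)
    · exact hz1 (odd_stab (t := t0) ho (hzc d) (by rw [← h1]; group) (h1 ▸ hm))
  have ht0fr : t0 ∉ fr T := fun h => by
    rcases hzfr' _ h with h1 | h1
    · exact hmov (by rw [h1, mul_one, one_mul])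
    · exact hmov (h1 ▸ hzc d)
  -- `T` has order eight
  have hT8 : Nat.card T = 8 := by
    by_contra h8'
    set C := T ⊓ Subgroup.centralizer ({t0} : Set G) with hCd
    have hCmem : ∀ g, g ∈ T → g * t0 * g⁻¹ = t0 → g ∈ C := fun g hg hg' =>
      ⟨hg, Subgroup.mem_centralizer_iff.2 fun v hv => by
        rw [Set.mem_singleton_iff] at hv
        subst hv
        exact (mul_inv_eq_iff_eq_mul.1 hg').symm⟩
    have hidx : Nat.card T ≤ 2 * Nat.card C := by
      refine card_le_two_mul inf_le_left fun a ha haC b hb hbC => hCmem _ (mul_mem (inv_mem ha) hb) ?_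
      have key : ∀ g ∈ T, g ∉ C → g * t0 * g⁻¹ = z * t0 := fun g hg hgC => by
        rcases hzfr' _ (comm_mem_fr hT hg ht0) with h | h
        · exfalso
          apply hgC
          refine hCmem g hg ?_
          rw [commutatorElement_def, mul_inv_eq_one] at h
          exact h
        · rw [commutatorElement_def, mul_inv_eq_iff_eq_mul] at h
          exact h
      calc a⁻¹ * b * t0 * (a⁻¹ * b)⁻¹ = a⁻¹ * (b * t0 * b⁻¹) * a := by group
        _ = a⁻¹ * (a * t0 * a⁻¹) * a := by rw [key b hb hbC, key a ha haC]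
        _ = t0 := by group
    have hC8 : 8 ≤ Nat.card C := by
      have h16 : 16 ≤ Nat.card T := by
        rw [hn] at h8' ⊢
        rcases Nat.lt_or_ge n 4 with h | h
        · exact absurd (by rw [show n = 3 by omega]; norm_num) h8'
        · exact le_trans (by norm_num) (Nat.pow_le_pow_right two_pos h)
      omega
    have hfrC : fr T ≤ C := fun f hf' => hCmem f (fr_le T hf') (by
      rcases hzfr' f hf' with rfl | rfl
      · simp
      · rw [← hzc t0, mul_inv_cancel_right])
    have ht0C : t0 ∈ C := hCmem t0 ht0 (by group)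
    have hfrc : fr T ≤ Subgroup.centralizer (C : Set G) := fun f hf' =>
      Subgroup.mem_centralizer_iff.2 fun c _ => by
        rcases hzfr' f hf' with rfl | rfl
        · simp
        · exact hzc c
    obtain ⟨W, hWC, -, hfW, ht0W, hWcard, hWmem⟩ := double hfrC hfrc ht0C ht0fr (sq_mem_fr hT ht0)
    have hW4 : Nat.card W = 4 := by
      rcases (Nat.dvd_prime Nat.prime_two).1 hfr2 with h | h
      · exact absurd (Subgroup.mem_bot.1 (Subgroup.eq_bot_of_card_eq _ h ▸ hzfr)) hz1
      · rw [hWcard, h]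
    have hWc : W ≤ Subgroup.centralizer (C : Set G) := by
      intro w hw
      rcases hWmem w hw with h | h
      · exact hfrc h
      · have h1 : w = t0⁻¹ * (t0 * w) := by group
        rw [h1]
        refine mul_mem (inv_mem (Subgroup.mem_centralizer_iff.2 fun c hc => ?_)) (hfrc h)
        exact (Subgroup.mem_centralizer_iff.1 hc.2 t0 rfl).symm
    rcases small_central_four (hT.to_le inf_le_left) (hs.mono inf_le_left) hWC hW4 hWc with hc | heq
    · have := hno8 C inf_le_left hc
      omega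
    · have h4 : Nat.card C = 4 := by rw [show C = W from heq, hW4]
      omega
  -- squares
  set y := t0 with hy
  set y' := d * t0 * d⁻¹ with hy'
  have hy'T : y' ∈ T := Subgroup.Normal.conj_mem inferInstance y ht0 d
  set f := QuotientGroup.mk' (fr T) with hfd
  set Tb := T.map f with hTb
  have hTb4 : Nat.card Tb = 4 := by
    have h1 := CfsgLib.Solvable.card_map_mk'_mul (fr T) (fr_le T)
    have h2 : Nat.card (fr T) = 2 := by
      rcases (Nat.dvd_prime Nat.prime_two).1 hfr2 with h | h
      · exact absurd (Subgroup.mem_bot.1 (Subgroup.eq_bot_of_card_eq _ h ▸ hzfr)) hz1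
      · exact h
    rw [h2, hT8] at h1
    show Nat.card (T.map (QuotientGroup.mk' (fr T))) = 4
    omega
  have hf1 : ∀ g, f g = 1 ↔ g ∈ fr T := fun g => QuotientGroup.eq_one_iff g
  have ha1 : f y ≠ 1 := fun h => ht0fr ((hf1 y).1 h)
  have hb1 : f y' ≠ 1 := fun h => ht0fr (by
    have h1 := Subgroup.Normal.conj_mem inferInstance y' ((hf1 y').1 h) d⁻¹
    simpa [hy', mul_assoc] using h1)
  have hab : f y' ≠ f y := fun h => hmov' ((hf1 _).1 (by rw [map_mul, map_inv, h, inv_mul_cancel]))
  have hasq : f y * f y = 1 := by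
    rw [← map_mul, hf1, ← pow_two]; exact sq_mem_fr hT ht0
  have hprod : f y' * f y ≠ 1 := fun h => hab (mul_right_cancel (h.trans hasq.symm))
  have hcase : ∀ t ∈ T, f t = 1 ∨ f t = f y ∨ f t = f y' ∨ f t = f y' * f y := fun t ht =>
    four_cases hTb4 ⟨y, ht0, rfl⟩ ha1 ⟨y', hy'T, rfl⟩ hb1 hab hprod ⟨t, ht, rfl⟩
  set y'' := d * y' * d⁻¹ with hy''
  have hy''T : y'' ∈ T := Subgroup.Normal.conj_mem inferInstance y' hy'T d
  have hy''f : f y'' = f y' * f y := by
    have e : f y'' = f d * f y' * (f d)⁻¹ := by rw [hy'', map_mul, map_mul, map_inv]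
    have e' : f y' = f d * f y * (f d)⁻¹ := by rw [hy', map_mul, map_mul, map_inv]
    rcases hcase y'' hy''T with h | h | h | h
    · exact absurd (conj_eq_one_iff.1 (e ▸ h)) hb1
    · exfalso
      have hc2 : Commute (f d ^ 2) (f y) := by
        refine mul_inv_eq_iff_eq_mul.1 ?_
        calc f d ^ 2 * f y * (f d ^ 2)⁻¹ = f d * (f d * f y * (f d)⁻¹) * (f d)⁻¹ := by
              rw [pow_two]; group
          _ = f y := by rw [← e', ← e]; exact h
      obtain ⟨m, hm⟩ := exists_pow_eq_self_of_coprime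
        (Nat.Coprime.coprime_dvd_right (orderOf_map_dvd f d) ho.symm)
      have h3 := hc2.pow_left m
      rw [hm] at h3
      exact hab (e'.trans (mul_inv_eq_iff_eq_mul.2 h3))
    · exfalso
      exact hab (mul_left_cancel (mul_right_cancel (e.symm.trans (h.trans e'))))
    · exact h
  have hmulsq : ∀ u t : G, f t = f u → u ∈ T → t ^ 2 = u ^ 2 := by
    intro u t h hu
    have hmem : u⁻¹ * t ∈ fr T := (hf1 _).1 (by rw [map_mul, map_inv, h, inv_mul_cancel])
    have e : t = u * (u⁻¹ * t) := by group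
    have hc : Commute u (u⁻¹ * t) := by
      rcases hzfr' _ hmem with h1 | h1
      · rw [h1]; exact Commute.one_right u
      · rw [h1]; exact hzc u
    rw [e, hc.mul_pow, pow_two (u⁻¹ * t), hfsq _ hmem, mul_one]
  have hy'2 : y' ^ 2 = y ^ 2 := by
    rw [hy', conj_pow]
    rcases hzfr' _ (sq_mem_fr hT ht0) with h | h
    · rw [h]; simp
    · rw [h, hzc d, mul_inv_cancel_right]
  have hy''2 : y'' ^ 2 = y ^ 2 := by
    rw [hy'', conj_pow, hy'2]
    rcases hzfr' _ (sq_mem_fr hT ht0) with h | h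
    · rw [h]; simp
    · rw [h, hzc d, mul_inv_cancel_right]
  have hsqT : ∀ t ∈ T, t ∉ fr T → t ^ 2 = y ^ 2 := by
    intro t ht htf
    rcases hcase t ht with h | h | h | h
    · exact absurd ((hf1 t).1 h) htf
    · exact hmulsq y t h ht0
    · exact (hmulsq y' t h hy'T).trans hy'2
    · exact (hmulsq y'' t (h.trans hy''f.symm) hy''T).trans hy''2
  have hy2 : y ^ 2 = z := by
    rcases hzfr' _ (sq_mem_fr hT ht0) with h | h
    · exfalso
      have hinv : ∀ c ∈ T, c⁻¹ = c := fun c hc => by
        refine inv_eq_of_mul_eq_one_left ?_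
        by_cases hcf : c ∈ fr T
        · exact hfsq c hcf
        · rw [← pow_two, hsqT c hc hcf, h]
      refine hTnab ⟨⟨fun a b => Subtype.ext ?_⟩⟩
      calc (a : G) * b = ((a : G) * b)⁻¹ := (hinv _ (mul_mem a.2 b.2)).symm
        _ = b * a := by rw [mul_inv_rev, hinv _ a.2, hinv _ b.2]
    · exact h
  have hgen : ∀ g : G, g * y = y * g → g * y' = y' * g → g ∈ Subgroup.centralizer (T : Set G) := by
    intro g hgy hgy'
    refine Subgroup.mem_centralizer_iff.2 fun t ht => ?_
    have hfrc : ∀ u ∈ fr T, Commute g u := fun u hu => by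
      rcases hzfr' u hu with rfl | rfl
      · exact Commute.one_right g
      · exact hzc g
    have key : ∀ u : G, Commute g u → f t = f u → t * g = g * t := fun u hu h => by
      have hmem : u⁻¹ * t ∈ fr T := (hf1 _).1 (by rw [map_mul, map_inv, h, inv_mul_cancel])
      have h2 := hu.mul_right (hfrc _ hmem)
      rw [mul_inv_cancel_left] at h2
      exact h2.eq.symm
    rcases hcase t ht with h | h | h | h
    · exact key 1 (Commute.one_right g) (by rw [h, map_one])
    · exact key y hgy h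
    · exact key y' hgy' h
    · exact key (y' * y) ((show Commute g y' from hgy').mul_right hgy) (by rw [h, ← map_mul])
  have hnoc : ∀ a b, a ∈ T → b ∈ T → a * b * a⁻¹ = b ∨ a * b * a⁻¹ = b * z := fun a b ha hb => by
    rcases hzfr' _ (comm_mem_fr hT ha hb) with h | h
    · left; rw [commutatorElement_def, mul_inv_eq_one] at h; exact h
    · right
      rw [commutatorElement_def, mul_inv_eq_iff_eq_mul] at h
      rw [h, hzc b]
  have hne : y' * y ≠ y * y' := by
    intro hcy
    apply hTnab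
    have h1 : y ∈ Subgroup.centralizer (T : Set G) := hgen y rfl hcy.symm
    have h2 : y' ∈ Subgroup.centralizer (T : Set G) := hgen y' hcy rfl
    refine ⟨⟨fun a b => Subtype.ext ?_⟩⟩
    refine (Subgroup.mem_centralizer_iff.1 (hgen b ?_ ?_) a a.2)
    · exact Subgroup.mem_centralizer_iff.1 h1 b b.2
    · exact Subgroup.mem_centralizer_iff.1 h2 b b.2
  refine ⟨z, y, y', hT8, ?_, hzT, hfsq z hzfr, hz1, hzfr', hzc, ht0, hy'T, ?_, ?_, hgen⟩
  · have key : ∀ u : T, orderOf u = 2 → (u : G) = z := fun u hu => by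
      have hu2 : (u : G) ^ 2 = 1 := by rw [← hu, ← Subgroup.coe_pow, pow_orderOf_eq_one]; rfl
      by_cases huf : (u : G) ∈ fr T
      · refine (hzfr' _ huf).resolve_left fun h => ?_
        rw [show u = 1 from Subtype.ext h, orderOf_one] at hu
        omega
      · exact absurd ((hsqT _ u.2 huf).symm.trans hu2) (hy2 ▸ hz1)
    exact fun u v hu hv => Subtype.ext ((key u hu).trans (key v hv).symm)
  · exact (hnoc y' y hy'T ht0).resolve_left fun h => hne (mul_inv_eq_iff_eq_mul.1 h)
  · exact (hnoc y y' ht0 hy'T).resolve_left fun h => hne (mul_inv_eq_iff_eq_mul.1 h).symm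

end CfsgLib.NoAbEight
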