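import Cfsg.Agent.NoAbEight.Action
import Cfsg.Agent.Solvable.SchurZassenhaus

/-!
A self-centralising normal small `2`-subgroup moved by an element of odd order leaves no room for a
noncyclic abelian subgroup of order eight in a larger `2`-group.
-/

set_option autoImplicit false
set_option linter.style.haveILetI false
set_option linter.unusedSectionVars false

namespace CfsgLib.NoAbEight

open scoped commutatorElement

variable {G : Type*} [Group G] [Finite G]

theorem exists_involution_ne {A : Subgroup G} (hA2 : IsPGroup 2 A) (hAc : IsMulCommutative A)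
    (hAn : ¬ IsCyclic A) (hA8 : Nat.card A = 8) (z : G) :
    ∃ u ∈ A, orderOf u = 2 ∧ u ≠ z := by
  have h1 : ¬ CfsgLib.TwoGroup.AtMostOneInvolution A := by
    intro h
    rcases CfsgLib.TwoGroup.cyclic_or_quaternion hA2 h with hc | ⟨k, hk, ⟨e⟩⟩
    · exact hAn hc
    · haveI : NeZero (2 ^ k) := ⟨(pow_pos two_pos k).ne'⟩
      have hcard := Nat.card_congr e.toEquiv
      rw [hA8, Nat.card_eq_fintype_card, QuaternionGroup.card] at hcard
      have hk1 : k = 1 := by
        have h2 : 2 ^ k = 2 ^ 1 := by omega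
        exact Nat.pow_right_injective le_rfl h2
      subst hk1
      have key : ∀ a b : QuaternionGroup (2 ^ 1), a * b = b * a := by
        intro a b
        apply e.symm.injective
        rw [map_mul, map_mul]
        exact hAc.is_comm.comm _ _
      exact absurd (key (QuaternionGroup.a 1) (QuaternionGroup.xa 0)) (by decide)
  unfold CfsgLib.TwoGroup.AtMostOneInvolution at h1
  push Not at h1
  obtain ⟨u, v, hu, hv, huv⟩ := h1
  by_cases huz : (u : G) = z
  · exact ⟨v, v.2, by rw [Subgroup.orderOf_coe, hv], fun h => huv (Subtype.ext (huz.trans h.symm))⟩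
  · exact ⟨u, u.2, by rw [Subgroup.orderOf_coe, hu], huz⟩

theorem core_false {T : Subgroup G} [T.Normal] (hT : IsPGroup 2 T) (hs : Small T)
    (hC : Subgroup.centralizer (T : Set G) ≤ T) {d : G} (ho : (orderOf d).Coprime 2)
    (hd : ∃ t ∈ T, d * t ≠ t * d) {P A : Subgroup G} (hP : IsPGroup 2 P) (hTP : T ≤ P)
    (hAP : A ≤ P) (hAc : IsMulCommutative A) (hAn : ¬ IsCyclic A) (hA8 : Nat.card A = 8) :
    False := by
  rcases aut_small hT hs ho hd with ⟨hT4, -, -⟩ | ⟨z, y, y', hE⟩
  · obtain ⟨-, hle⟩ := centralizer_four hP hTP hT4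
      (fun t _ w hw => Subgroup.Normal.conj_mem inferInstance w hw t)
    have h1 : Nat.card (P ⊓ Subgroup.centralizer (T : Set G) : Subgroup G) ≤ 4 := by
      rw [← hT4]
      exact Nat.le_of_dvd Nat.card_pos (Subgroup.card_dvd_of_le (inf_le_right.trans hC))
    have hAP' : A = P := Subgroup.eq_of_le_of_card_ge hAP (by omega)
    have hAT : A ≤ T := fun a ha => hC (Subgroup.mem_centralizer_iff.2 fun t ht =>
      congrArg Subtype.val (hAc.is_comm.comm ⟨t, hAP' ▸ hTP ht⟩ ⟨a, ha⟩))
    have h2 := Subgroup.card_dvd_of_le hAT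
    rw [hA8, hT4] at h2
    exact absurd (Nat.le_of_dvd (by norm_num) h2) (by norm_num)
  -- the quaternion case
  have hzfr : z ∈ fr T := by
    have h1 := comm_mem_fr hT hE.y'_mem hE.y_mem
    rwa [commutatorElement_def, hE.conj_y, hE.z_central y, mul_inv_cancel_right] at h1
  have hfr2 : Nat.card (fr T) = 2 := by
    rw [Nat.card_eq_two_iff' (⟨1, one_mem _⟩ : fr T)]
    refine ⟨⟨z, hzfr⟩, fun h => hE.z_ne (congrArg Subtype.val h), fun w hw => Subtype.ext ?_⟩
    exact (hE.z_fr _ w.2).resolve_left fun h => hw (Subtype.ext h)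
  set f := QuotientGroup.mk' (fr T) with hfd
  have hf1 : ∀ g, f g = 1 ↔ g ∈ fr T := fun g => QuotientGroup.eq_one_iff g
  set V := T.map f with hVd
  haveI hVn : V.Normal := Subgroup.Normal.map inferInstance f (QuotientGroup.mk'_surjective _)
  have hV4 : Nat.card V = 4 := by
    have h1 := CfsgLib.Solvable.card_map_mk'_mul (fr T) (fr_le T)
    rw [hfr2, hE.card] at h1
    show Nat.card (T.map (QuotientGroup.mk' (fr T))) = 4
    omega
  have hker : ∀ g : G, (∀ t ∈ T, f (g * t * g⁻¹) = f t) → g ∈ T := by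
    intro g hg
    have key : ∀ t ∈ T, g * t * g⁻¹ = t ∨ g * t * g⁻¹ = t * z := fun t ht => by
      have h1 : g * t * g⁻¹ * t⁻¹ ∈ fr T := by
        rw [← hf1, map_mul, map_inv, hg t ht, mul_inv_cancel]
      rcases hE.z_fr _ h1 with h | h
      · exact Or.inl (mul_inv_eq_one.1 h)
      · exact Or.inr ((mul_inv_eq_iff_eq_mul.1 h).trans (hE.z_central t).symm)
    obtain ⟨t, ht, htc⟩ := hE.inner (key y hE.y_mem) (key y' hE.y'_mem)
    have h2 := mul_mem ht (hC htc)
    rwa [mul_inv_cancel_left] at h2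
  have hVP : V ≤ P.map f := Subgroup.map_mono hTP
  obtain ⟨-, hle⟩ := centralizer_four (hP.map f) hVP hV4
    (fun t _ w hw => hVn.conj_mem w hw t)
  have hcap : Nat.card (P.map f ⊓ Subgroup.centralizer (V : Set (G ⧸ fr T)) : Subgroup (G ⧸ fr T))
      ≤ 4 := by
    rw [← hV4]
    refine Nat.le_of_dvd Nat.card_pos (Subgroup.card_dvd_of_le ?_)
    rintro _ ⟨⟨g, -, rfl⟩, hg⟩
    refine ⟨g, hker g fun t ht => ?_, rfl⟩
    rw [map_mul, map_mul, map_inv, mul_inv_eq_iff_eq_mul]
    exact (Subgroup.mem_centralizer_iff.1 hg _ (Subgroup.mem_map_of_mem f ht)).symm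
  have hPc : Nat.card P ≤ 16 := by
    rw [← CfsgLib.Solvable.card_map_mk'_mul (fr T) ((fr_le T).trans hTP), hfr2, ← hfd]
    omega
  -- the intersection with `T` is large
  have hidxP : T.relIndex P ≤ 2 := by
    have h1 := (T.subgroupOf P).card_mul_index
    rw [Nat.card_congr (Subgroup.subgroupOfEquivOfLe hTP).toEquiv, hE.card] at h1
    show (T.subgroupOf P).index ≤ 2
    omega
  have hidxA : T.relIndex A ≤ 2 :=
    le_trans (Subgroup.relIndex_le_of_le_right hAP
      (T.subgroupOf P).index_ne_zero_of_finite) hidxP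
  obtain ⟨i, hiA, hiT, hifr⟩ : ∃ i ∈ A, i ∈ T ∧ i ∉ fr T := by
    by_contra hcon
    push Not at hcon
    have h1 := (T.subgroupOf A).card_mul_index
    have h2 : Nat.card (T.subgroupOf A) ≤ 2 := by
      rw [← Subgroup.card_subtype A, ← hfr2]
      refine Nat.le_of_dvd Nat.card_pos (Subgroup.card_dvd_of_le ?_)
      rintro _ ⟨a, ha, rfl⟩
      exact hcon a a.2 ha
    rw [hA8] at h1
    have h3 : (T.subgroupOf A).index ≤ 2 := hidxA
    have h4 : 8 ≤ 2 * 2 := h1 ▸ Nat.mul_le_mul h2 h3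
    omega
  obtain ⟨u, huA, hu2, huz⟩ := exists_involution_ne (hP.to_le hAP) hAc hAn hA8 z
  have hzo : orderOf (⟨z, hE.z_mem⟩ : T) = 2 := by
    rw [Subgroup.orderOf_mk]
    exact orderOf_eq_prime (by rw [pow_two]; exact hE.z_sq) hE.z_ne
  have huT : u ∉ T := fun h => huz (congrArg Subtype.val
    (hE.amo ⟨u, h⟩ ⟨z, hE.z_mem⟩ (by rw [Subgroup.orderOf_mk, hu2]) hzo))
  have huu : u * u = 1 := by rw [← pow_two, ← hu2, pow_orderOf_eq_one]
  have hiu : Commute u i := congrArg Subtype.val (hAc.is_comm.comm ⟨u, huA⟩ ⟨i, hiA⟩)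
  apply huT
  refine hker u fun j hj => ?_
  have hfi : f i ≠ 1 := fun h => hifr ((hf1 i).1 h)
  rcases two_coset hV4 (Subgroup.mem_map_of_mem f hiT) hfi (x := f u)
      (by rw [← map_mul, hiu.eq, map_mul, mul_inv_cancel_right])
      (fun w hw => hVn.conj_mem w hw _) (Subgroup.mem_map_of_mem f hj) with h | h
  · rw [map_mul, map_mul, map_inv, h]
  exfalso
  obtain ⟨t, ht⟩ : ∃ t, j⁻¹ * (u * j * u⁻¹) = t := ⟨_, rfl⟩
  have hft : f t = f i := by
    rw [← ht, map_mul, map_mul, map_mul, map_inv, map_inv, h, inv_mul_cancel_left]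
  have htT : t ∈ T := by
    rw [← ht]
    exact mul_mem (inv_mem hj) (Subgroup.Normal.conj_mem inferInstance j hj u)
  have htu : Commute u t := by
    have h1 : i⁻¹ * t ∈ fr T := by rw [← hf1, map_mul, map_inv, hft, inv_mul_cancel]
    have h2 : Commute u (i⁻¹ * t) := by
      rcases hE.z_fr _ h1 with h3 | h3
      · rw [h3]; exact Commute.one_right u
      · rw [h3]; exact hE.z_central u
    have h3 := hiu.mul_right h2
    rwa [mul_inv_cancel_left] at h3
  have hujt : u * j * u⁻¹ = j * t := by rw [← ht, mul_inv_cancel_left]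
  have hj2 : j = j * t * t := by
    calc j = u * u * j * (u * u)⁻¹ := by rw [huu]; simp
      _ = u * (u * j * u⁻¹) * u⁻¹ := by group
      _ = u * (j * t) * u⁻¹ := by rw [hujt]
      _ = (u * j * u⁻¹) * (u * t * u⁻¹) := by group
      _ = j * t * t := by rw [hujt, htu.eq, mul_inv_cancel_right]
  have ht2 : t * t = 1 := by
    rwa [mul_assoc, left_eq_mul] at hj2
  rcases eq_or_ne t 1 with h1 | h1
  · exact hfi (by rw [← hft, h1, map_one])
  · have h2 : orderOf (⟨t, htT⟩ : T) = 2 := by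
      rw [Subgroup.orderOf_mk]
      exact orderOf_eq_prime (by rw [pow_two]; exact ht2) h1
    have h3 : t = z := congrArg Subtype.val (hE.amo ⟨t, htT⟩ ⟨z, hE.z_mem⟩ h2 hzo)
    exact hfi (by rw [← hft, (hf1 t).2 (h3 ▸ hzfr)])

end CfsgLib.NoAbEight
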