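import Cfsg.Agent.NoAbEight.Structure

/-!
A normal Sylow `2`-subgroup with Frattini subgroup of order two.
-/

set_option autoImplicit false
set_option linter.style.haveILetI false
set_option linter.unusedSectionVars false

namespace CfsgLib.NoAbEight

open scoped commutatorElement

variable {G : Type*} [Group G] [Finite G]

theorem small_frattini {T : Subgroup G} [T.Normal] (hT : IsPGroup 2 T)
    (hsm : ∀ N : Subgroup G, N.Normal → N ≤ T → N ≠ T → Small N) (h16 : 16 ≤ Nat.card T)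
    (hnc : ¬ IsMulCommutative T) {H : Subgroup G} (hH : (Nat.card H).Coprime 2)
    (hTH : T ⊔ H = ⊤) {d : G} (hdH : d ∈ H) (hd : ∃ t ∈ T, d * t ≠ t * d)
    (h4 : Nat.card (fr T) < 4) :
    (Cfsg.IsExtraspecial 2 T ∧ 32 ≤ Nat.card T) ∨
      ∃ (X₀ : Subgroup G) (k : ℕ), X₀ ≤ T ∧ X₀.relIndex T = 2 ∧
        Nonempty (↥X₀ ≃* QuaternionGroup (2 ^ (k + 1))) ∧
        X₀ ⊔ (T ⊓ Subgroup.centralizer (X₀ : Set G)) = T := by
  obtain ⟨z, hzfr, hz1⟩ := (Subgroup.bot_or_exists_ne_one (fr T)).resolve_left fun hb => hnc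
    ⟨⟨fun a b => Subtype.ext (commutatorElement_eq_one_iff_mul_comm.1
      (Subgroup.mem_bot.1 (hb ▸ comm_mem_fr hT a.2 b.2)))⟩⟩
  have hfr2 : Nat.card (fr T) = 2 := by
    rcases four_le_of_dvd (fr_isPGroup hT) with h | h
    · rcases (Nat.dvd_prime Nat.prime_two).1 h with h1 | h1
      · exact absurd (Subgroup.mem_bot.1 (Subgroup.eq_bot_of_card_eq _ h1 ▸ hzfr)) hz1
      · exact h1
    · exact absurd (Nat.le_of_dvd Nat.card_pos h) (by omega)
  have hzfr' : ∀ f ∈ fr T, f = 1 ∨ f = z := by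
    intro f hf
    have hc2 := hfr2
    rw [Nat.card_eq_two_iff' (⟨1, one_mem _⟩ : fr T)] at hc2
    obtain ⟨u, -, hu⟩ := hc2
    by_cases hf1 : f = 1
    · exact Or.inl hf1
    · right
      exact congrArg Subtype.val ((hu ⟨f, hf⟩ fun h => hf1 (congrArg Subtype.val h)).trans
        (hu ⟨z, hzfr⟩ fun h => hz1 (congrArg Subtype.val h)).symm)
  have hzc : ∀ g : G, g * z = z * g := by
    intro g
    rcases hzfr' _ (Subgroup.Normal.conj_mem inferInstance z hzfr g) with h | h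
    · exact absurd (conj_eq_one_iff.1 h) hz1
    · exact mul_inv_eq_iff_eq_mul.1 h
  have hfc : ∀ f ∈ fr T, ∀ t : G, t * f = f * t := fun f hf t => by
    rcases hzfr' f hf with rfl | rfl
    · rw [mul_one, one_mul]
    · exact hzc t
  have hfsq : ∀ f ∈ fr T, f * f = 1 := fun f hf => by
    rw [← pow_two]
    exact orderOf_dvd_iff_pow_eq_one.1 (hfr2 ▸ (fr T).orderOf_dvd_natCard hf)
  have hexp : ∀ t ∈ T, t ^ 4 = 1 := fun t ht => by
    rw [show (4 : ℕ) = 2 * 2 from rfl, pow_mul, pow_two]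
    exact hfsq _ (sq_mem_fr hT ht)
  have hcyc4 : ∀ B : Subgroup G, B ≤ T → IsCyclic B → Nat.card B ≤ 4 := fun B hB hBc => by
    obtain ⟨g, hg⟩ := hBc.exists_generator
    rw [← orderOf_eq_card_of_forall_mem_zpowers hg, ← Subgroup.orderOf_coe]
    exact Nat.le_of_dvd (by norm_num) (orderOf_dvd_of_pow_eq_one (hexp g (hB g.2)))
  set Z := T ⊓ Subgroup.centralizer (T : Set G) with hZd
  have hfZ : fr T ≤ Z := fun f hf => ⟨fr_le T hf, Subgroup.mem_centralizer_iff.2 fun t _ => hfc f hf t⟩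
  have hZc : ∀ c ∈ Z, ∀ t ∈ T, t * c = c * t := fun c hc t ht =>
    Subgroup.mem_centralizer_iff.1 hc.2 t ht
  by_cases hZfr : Z = fr T
  · left
    have hmem : ∀ x : T, (x : G) ∈ fr T → x ∈ Subgroup.center T := fun x hx =>
      (mem_center_iff' x).2 (hfZ hx)
    have hes : Cfsg.IsExtraspecial 2 T := by
      refine CfsgLib.PGroup.isExtraspecial_of hT ?_ ?_ (fun a b => hmem _ (comm_mem_fr hT a.2 b.2))
        (fun a => hmem _ (sq_mem_fr hT a.2))
      · rw [card_center_eq, ← hZd, hZfr, hfr2]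
      · by_contra hcon
        push Not at hcon
        exact hnc ⟨⟨hcon⟩⟩
    refine ⟨hes, ?_⟩
    obtain ⟨n, -, hn⟩ := CfsgLib.PGroup.extraspecial_card hes
    rw [hn] at h16 ⊢
    rcases Nat.lt_or_ge n 2 with h | h
    · exfalso
      have h1 : 2 ^ (2 * n + 1) ≤ 2 ^ 3 := Nat.pow_le_pow_right two_pos (by omega)
      omega
    · calc 32 = 2 ^ 5 := by norm_num
        _ ≤ 2 ^ (2 * n + 1) := Nat.pow_le_pow_right two_pos (by omega)
  right
  have hZne : Z ≠ T := fun h => hnc ⟨⟨fun a b => Subtype.ext (hZc b (h.symm ▸ b.2) a a.2)⟩⟩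
  have hZs : Small Z := hsm Z inferInstance inf_le_left hZne
  have hZp : IsPGroup 2 Z := hT.to_le inf_le_left
  have hZ4 : Nat.card Z = 4 := by
    have h1 : 4 ∣ Nat.card Z := (four_le_of_dvd hZp).resolve_left fun h => hZfr
      (Subgroup.eq_of_le_of_card_ge hfZ (hfr2 ▸ Nat.le_of_dvd two_pos h)).symm
    obtain ⟨W0, hW0⟩ := Sylow.exists_subgroup_card_pow_prime 2 (G := Z) (n := 2) (by simpa using h1)
    have hW0le : W0.map Z.subtype ≤ Z := Subgroup.map_subtype_le _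
    have hW0c : Nat.card (W0.map Z.subtype) = 4 := by rw [Subgroup.card_subtype, hW0]; norm_num
    rcases small_central_four hZp hZs hW0le hW0c (fun w hw => Subgroup.mem_centralizer_iff.2
        fun y hy => hZc w (hW0le hw) y hy.1) with hc | h
    · have := hcyc4 Z inf_le_left hc
      have := Nat.le_of_dvd Nat.card_pos h1
      omega
    · rw [h, hW0c]
  obtain ⟨z1, hz1Z, hz1fr⟩ : ∃ z1 ∈ Z, z1 ∉ fr T := by
    by_contra hcon
    push Not at hcon
    exact hZfr (le_antisymm hcon hfZ)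
  have hz1T : z1 ∈ T := hz1Z.1
  have hidxZ : ((fr T).subgroupOf Z).index = 2 := by
    have h1 := ((fr T).subgroupOf Z).card_mul_index
    rw [Nat.card_congr (Subgroup.subgroupOfEquivOfLe hfZ).toEquiv, hfr2, hZ4] at h1
    omega
  have hZmul : ∀ a ∈ Z, a ∉ fr T → ∀ b ∈ Z, b ∉ fr T → a * b ∈ fr T := fun a ha ha' b hb hb' =>
    (Subgroup.mul_mem_iff_of_index_two hidxZ (a := ⟨a, ha⟩) (b := ⟨b, hb⟩)).2
      ⟨fun h => absurd h ha', fun h => absurd h hb'⟩
  -- the quotient by the Frattini subgroup and the norm map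
  letI : CommGroup (T ⧸ frattini T) :=
    { (inferInstance : Group (T ⧸ frattini T)) with
      mul_comm := CfsgLib.PGroup.frattini_quotient_comm hT }
  set π := QuotientGroup.mk' (frattini T) with hπd
  have hπ1 : ∀ x : T, π x = 1 ↔ (x : G) ∈ fr T := fun x =>
    (QuotientGroup.eq_one_iff x).trans (Subgroup.mem_map_iff_mem T.subtype_injective).symm
  have hexp2 : ∀ q : T ⧸ frattini T, q ^ 2 = 1 := fun q =>
    CfsgLib.PGroup.frattini_quotient_pow hT q
  haveI := Fintype.ofFinite H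
  let Nm : T →* T ⧸ frattini T :=
    ∏ h : H, π.comp ((MulAut.conjNormal (h : G) : MulAut T).toMonoidHom)
  have hNm : ∀ x : T, Nm x = ∏ h : H, π ((MulAut.conjNormal (h : G) : MulAut T) x) := fun x =>
    MonoidHom.finsetProd_apply _ _ x
  have hinv : ∀ (h0 : H) (x : T), Nm ((MulAut.conjNormal (h0 : G) : MulAut T) x) = Nm x := by
    intro h0 x
    rw [hNm, hNm]
    refine Fintype.prod_equiv (Equiv.mulRight h0) _ _ fun h => ?_
    rw [Equiv.coe_mulRight, Subgroup.coe_mul, map_mul, MulAut.mul_apply]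
  set Y := Nm.ker.map T.subtype with hYd
  have hY : ∀ g : G, g ∈ Y ↔ ∃ hg : g ∈ T, Nm ⟨g, hg⟩ = 1 := fun g => by
    constructor
    · rintro ⟨x, hx, rfl⟩
      exact ⟨x.2, hx⟩
    · rintro ⟨hg, h⟩
      exact ⟨⟨g, hg⟩, h, rfl⟩
  have hYT : Y ≤ T := Subgroup.map_subtype_le _
  have hYnT : ∀ t ∈ T, ∀ n ∈ Y, t * n * t⁻¹ ∈ Y := by
    rintro t ht _ ⟨x, hx, rfl⟩
    exact ⟨_, Subgroup.Normal.conj_mem inferInstance x hx ⟨t, ht⟩, rfl⟩
  have hYnH : ∀ h ∈ H, ∀ n ∈ Y, h * n * h⁻¹ ∈ Y := by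
    intro h hh n hn
    obtain ⟨hnT, h1⟩ := (hY n).1 hn
    rw [hY]
    refine ⟨Subgroup.Normal.conj_mem inferInstance n hnT h, ?_⟩
    rw [← h1, ← hinv ⟨h, hh⟩ ⟨n, hnT⟩]
    rfl
  have hYn : Y.Normal := by
    rw [← Subgroup.normalizer_eq_top_iff, ← top_le_iff, ← hTH, sup_le_iff]
    constructor
    · intro t ht
      rw [Subgroup.mem_normalizer_iff]
      refine fun n => ⟨hYnT t ht n, fun hn => ?_⟩
      have h1 := hYnT _ (inv_mem ht) _ hn
      simpa [mul_assoc] using h1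
    · intro t ht
      rw [Subgroup.mem_normalizer_iff]
      refine fun n => ⟨hYnH t ht n, fun hn => ?_⟩
      have h1 := hYnH _ (inv_mem ht) _ hn
      simpa [mul_assoc] using h1
  haveI := hYn
  have hfrY : fr T ≤ Y := fr_le_of hT hYnT fun t ht => by
    rw [hY]
    refine ⟨pow_mem ht 2, ?_⟩
    exact (map_pow Nm (⟨t, ht⟩ : T) 2).trans (hexp2 _)
  have hz1Y : z1 ∉ Y := by
    intro hcon
    obtain ⟨hg, h1⟩ := (hY z1).1 hcon
    rw [hNm] at h1
    have h2 : ∀ h : H, π ((MulAut.conjNormal (h : G) : MulAut T) ⟨z1, hg⟩) = π ⟨z1, hg⟩ := by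
      intro h
      have h3 : (h : G) * z1 * (h : G)⁻¹ ∈ Z := Subgroup.Normal.conj_mem inferInstance z1 hz1Z _
      have h4 : (h : G) * z1 * (h : G)⁻¹ ∉ fr T := fun hc => hz1fr (by
        have h5 := Subgroup.Normal.conj_mem inferInstance _ hc (h : G)⁻¹
        simpa [mul_assoc] using h5)
      have h5 : π ((MulAut.conjNormal (h : G) : MulAut T) ⟨z1, hg⟩ * ⟨z1, hg⟩) = 1 := by
        rw [hπ1]
        exact hZmul _ h3 h4 z1 hz1Z hz1fr
      rw [map_mul] at h5
      rw [eq_inv_of_mul_eq_one_left h5]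
      exact inv_eq_of_mul_eq_one_left (by rw [← pow_two]; exact hexp2 _)
    rw [Finset.prod_congr rfl (fun h _ => h2 h), Finset.prod_const, Finset.card_univ,
      ← Nat.card_eq_fintype_card] at h1
    obtain ⟨m, hm⟩ := Nat.odd_iff.2 (Nat.odd_iff.1 (Nat.coprime_two_right.1 hH))
    rw [hm, pow_succ, pow_mul, hexp2, one_pow, one_mul, hπ1] at h1
    exact hz1fr h1
  have hYne : Y ≠ T := fun h => hz1Y (h.symm ▸ hz1T)
  have hYs : Small Y := hsm Y hYn hYT hYne
  have hYp : IsPGroup 2 Y := hT.to_le hYT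
  have ho : (orderOf d).Coprime 2 := hH.coprime_dvd_left (H.orderOf_dvd_natCard hdH)
  have hmove : ∃ t ∈ Y, d * t ≠ t * d := by
    by_contra hcon
    push Not at hcon
    obtain ⟨t0, ht0, hmov⟩ := hd
    have hdt : d * t0 * d⁻¹ ∈ T := Subgroup.Normal.conj_mem inferInstance t0 ht0 d
    have hc : t0⁻¹ * (d * t0 * d⁻¹) ∈ Y := by
      rw [hY]
      refine ⟨mul_mem (inv_mem ht0) hdt, ?_⟩
      show Nm ((⟨t0, ht0⟩ : T)⁻¹ * (MulAut.conjNormal d : MulAut T) ⟨t0, ht0⟩) = 1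
      rw [map_mul, map_inv, hinv ⟨d, hdH⟩, inv_mul_cancel]
    obtain ⟨m, hm⟩ := pow_eq_one_of_mem hYp hc
    have h1 := odd_stab (t := t0) ho (hcon _ hc) (by group) hm
    rw [inv_mul_eq_one] at h1
    exact hmov (mul_inv_eq_iff_eq_mul.1 h1.symm)
  rcases aut_small hYp hYs ho hmove with ⟨hY4, hYc, hYnc⟩ | ⟨z', y, y', hE⟩
  · -- `Y Z` would be too large
    exfalso
    obtain ⟨x, hxY, hxfr⟩ : ∃ x ∈ Y, x ∉ fr T := by
      by_contra hcon
      push Not at hcon
      have := Nat.le_of_dvd Nat.card_pos (Subgroup.card_dvd_of_le (show Y ≤ fr T from hcon))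
      omega
    have hYc' : ∀ a ∈ Y, ∀ b ∈ Y, a * b = b * a := fun a ha b hb =>
      congrArg Subtype.val (hYc.is_comm.comm ⟨a, ha⟩ ⟨b, hb⟩)
    set M := Y ⊔ Z with hMd
    have hMT : M ≤ T := sup_le hYT inf_le_left
    have hMc : M ≤ Subgroup.centralizer (M : Set G) := by
      have hYcY : Y ≤ Subgroup.centralizer (Y : Set G) := fun a ha =>
        Subgroup.mem_centralizer_iff.2 fun b hb => hYc' b hb a ha
      have hZcT : Z ≤ Subgroup.centralizer (T : Set G) := inf_le_right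
      have h1 : M ≤ Subgroup.centralizer (Y : Set G) :=
        sup_le hYcY (hZcT.trans (Subgroup.centralizer_le hYT))
      have h2 : M ≤ Subgroup.centralizer (Z : Set G) :=
        hMT.trans (Subgroup.le_centralizer_iff.1 hZcT)
      exact sup_le (Subgroup.le_centralizer_iff.1 h1) (Subgroup.le_centralizer_iff.1 h2)
    haveI hMn : M.Normal := Subgroup.sup_normal Y Z
    have hMne : M ≠ T := fun h => hnc ⟨⟨fun a b => Subtype.ext
      (Subgroup.mem_centralizer_iff.1 (hMc (h.symm ▸ b.2)) a (h.symm ▸ a.2 : (a : G) ∈ M))⟩⟩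
    have hMcomm : IsMulCommutative M := ⟨⟨fun a b => Subtype.ext
      (Subgroup.mem_centralizer_iff.1 (hMc b.2) a a.2)⟩⟩
    rcases small_central_four (hT.to_le hMT) (hsm M hMn hMT hMne) (le_sup_left : Y ≤ M) hY4
        ((le_sup_left : Y ≤ M).trans hMc) with hc | h
    · haveI := hc
      exact hYnc (isCyclic_of_injective (Subgroup.inclusion (le_sup_left : Y ≤ M))
        (Subgroup.inclusion_injective _))
    · exact hz1Y (h ▸ (le_sup_right : Z ≤ M) hz1Z)
  -- the quaternion case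
  have hz' : z' = z := by
    have h1 := comm_mem_fr hT (hYT hE.y'_mem) (hYT hE.y_mem)
    rw [commutatorElement_def, hE.conj_y, hE.z_central y, mul_inv_cancel_right] at h1
    exact (hzfr' _ h1).resolve_left hE.z_ne
  have hact : ∀ t ∈ T, ∀ u ∈ T, t * u * t⁻¹ = u ∨ t * u * t⁻¹ = u * z := fun t ht u hu => by
    rcases hzfr' _ (comm_mem_fr hT ht hu) with h | h
    · left; rw [commutatorElement_def, mul_inv_eq_one] at h; exact h
    · right
      rw [commutatorElement_def, mul_inv_eq_iff_eq_mul] at h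
      rw [h, hzc u]
  set C := T ⊓ Subgroup.centralizer (Y : Set G) with hCd
  haveI : C.Normal := inferInstance
  have hsplit : ∀ t ∈ T, ∃ u ∈ Y, u⁻¹ * t ∈ C := fun t ht => by
    obtain ⟨u, hu, huc⟩ := hE.inner (g := t) (hz' ▸ hact t ht y (hYT hE.y_mem))
      (hz' ▸ hact t ht y' (hYT hE.y'_mem))
    exact ⟨u, hu, Subgroup.mul_mem _ (Subgroup.inv_mem _ (hYT hu)) ht, huc⟩
  have hZC : Z ≤ C := fun c hc => ⟨hc.1, Subgroup.centralizer_le hYT hc.2⟩
  have hCne : C ≠ T := fun h => hE.not_comm ⟨⟨fun a b => Subtype.ext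
    (Subgroup.mem_centralizer_iff.1 (show (b : G) ∈ C from h.symm ▸ hYT b.2).2 a a.2)⟩⟩
  have hCZ : C = Z := by
    rcases small_central_four (hT.to_le inf_le_left) (hsm C inferInstance inf_le_left hCne) hZC
        hZ4 (fun c hc => Subgroup.mem_centralizer_iff.2 fun x hx => hZc c hc x hx.1) with hc | h
    · exact (Subgroup.eq_of_le_of_card_ge hZC (by rw [hZ4]; exact hcyc4 C inf_le_left hc)).symm
    · exact h
  have hQ : Nonempty (↥Y ≃* QuaternionGroup (2 ^ (0 + 1))) := by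
    rcases CfsgLib.TwoGroup.cyclic_or_quaternion hYp hE.amo with hc | ⟨k, hk, ⟨e⟩⟩
    · exact absurd (by haveI := hc; exact IsCyclic.isMulCommutative) hE.not_comm
    · haveI : NeZero (2 ^ k) := ⟨(pow_pos two_pos k).ne'⟩
      have hcard := Nat.card_congr e.toEquiv
      rw [hE.card, Nat.card_eq_fintype_card, QuaternionGroup.card] at hcard
      have hk1 : k = 1 := by
        have h2 : 2 ^ k = 2 ^ 1 := by omega
        exact Nat.pow_right_injective le_rfl h2
      subst hk1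
      exact ⟨e⟩
  refine ⟨Y, 0, hYT, ?_, hQ, le_antisymm (sup_le hYT inf_le_left) fun t ht => ?_⟩
  · show (Y.subgroupOf T).index = 2
    rw [Subgroup.index_eq_two_iff]
    refine ⟨⟨z1, hz1T⟩, fun b => ?_⟩
    obtain ⟨u, hu, huc⟩ := hsplit b b.2
    rw [hCZ] at huc
    have hb : (b : G) = u * (u⁻¹ * b) := by group
    by_cases hbf : u⁻¹ * (b : G) ∈ fr T
    · have hbY : (b : G) ∈ Y := by rw [hb]; exact mul_mem hu (hfrY hbf)
      refine Or.inr ⟨Subgroup.mem_subgroupOf.2 hbY, fun h => hz1Y ?_⟩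
      have h1 : (b : G)⁻¹ * ((b : G) * z1) ∈ Y := mul_mem (inv_mem hbY) h
      rwa [inv_mul_cancel_left] at h1
    · refine Or.inl ⟨Subgroup.mem_subgroupOf.2 ?_, fun h => ?_⟩
      · show (b : G) * z1 ∈ Y
        rw [hb, mul_assoc]
        exact mul_mem hu (hfrY (hZmul _ huc hbf z1 hz1Z hz1fr))
      · have h1 : u⁻¹ * (b : G) ∈ Y := mul_mem (inv_mem hu) h
        have h2 := hfrY (hZmul _ huc hbf z1 hz1Z hz1fr)
        have h3 : (u⁻¹ * (b : G))⁻¹ * (u⁻¹ * (b : G) * z1) ∈ Y := mul_mem (inv_mem h1) h2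
        rw [inv_mul_cancel_left] at h3
        exact hz1Y h3
  · obtain ⟨u, hu, huc⟩ := hsplit t ht
    have hb : t = u * (u⁻¹ * t) := by group
    rw [hb]
    exact Subgroup.mul_mem_sup hu huc

end CfsgLib.NoAbEight
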