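import Cfsg.Agent.NoAbEight.Action
import Cfsg.Agent.PGroup.Extraspecial
import Cfsg.Prelude.Def_Transfer
import Cfsg.Agent.Eq.Def_Transfer

/-!
The structure of a normal Sylow `2`-subgroup whose proper normal parts are small.
-/

set_option autoImplicit false
set_option linter.style.haveILetI false
set_option linter.unusedSectionVars false

namespace CfsgLib.NoAbEight

open scoped commutatorElement

variable {G : Type*} [Group G] [Finite G]

theorem mem_center_iff' {T : Subgroup G} (x : T) :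
    x ∈ Subgroup.center T ↔ (x : G) ∈ T ⊓ Subgroup.centralizer (T : Set G) :=
  ⟨fun h => ⟨x.2, Subgroup.mem_centralizer_iff.2 fun y hy =>
    congrArg Subtype.val (Subgroup.mem_center_iff.1 h ⟨y, hy⟩)⟩,
   fun h => Subgroup.mem_center_iff.2 fun y => Subtype.ext
    (Subgroup.mem_centralizer_iff.1 h.2 y y.2)⟩

theorem card_center_eq (T : Subgroup G) :
    Nat.card (Subgroup.center T) = Nat.card (T ⊓ Subgroup.centralizer (T : Set G) : Subgroup G) := by
  rw [← Subgroup.card_subtype T]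
  congr 2
  ext x
  constructor
  · rintro ⟨y, hy, rfl⟩
    exact (mem_center_iff' y).1 hy
  · intro hx
    exact ⟨⟨x, hx.1⟩, (mem_center_iff' _).2 hx, rfl⟩

/-- A large Frattini subgroup is central. -/
theorem fr_central {T : Subgroup G} [T.Normal] (hT : IsPGroup 2 T)
    (hsm : ∀ N : Subgroup G, N.Normal → N ≤ T → N ≠ T → Small N) (h16 : 16 ≤ Nat.card T)
    {d : G} (ho : (orderOf d).Coprime 2) (hd : ∃ t ∈ T, d * t ≠ t * d)
    (h4 : 4 ≤ Nat.card (fr T)) : ∀ f ∈ fr T, ∀ t ∈ T, t * f = f * t := by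
  have hne : fr T ≠ T := fun h => by
    have h1 := fr_card_lt (T := T) (fun hb => by rw [hb, Subgroup.card_bot] at h16; omega)
    rw [h] at h1
    omega
  have hfs : Small (fr T) := hsm _ inferInstance (fr_le T) hne
  haveI := fr_comm hT hfs
  set C := T ⊓ Subgroup.centralizer (fr T : Set G) with hCd
  by_cases hCT : C = T
  · intro f hf t ht
    rw [← hCT] at ht
    exact (Subgroup.mem_centralizer_iff.1 ht.2 f hf).symm
  exfalso
  haveI : C.Normal := inferInstance
  have hCs : Small C := hsm C inferInstance inf_le_left hCT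
  have hCp : IsPGroup 2 C := hT.to_le inf_le_left
  obtain ⟨W, hWn, hWfr, hW, -⟩ := exists_four_normal hT hfs h4
  haveI := hWn
  have hfrC : fr T ≤ C := fun f hf => ⟨fr_le T hf, Subgroup.mem_centralizer_iff.2 fun g hg =>
    congrArg Subtype.val ((fr_comm hT hfs).is_comm.comm ⟨g, hg⟩ ⟨f, hf⟩)⟩
  have hWc : W ≤ Subgroup.centralizer (C : Set G) :=
    Subgroup.le_centralizer_iff.1 ((inf_le_right : C ≤ _).trans (Subgroup.centralizer_le hWfr))
  rcases small_central_four hCp hCs (hWfr.trans hfrC) hW hWc with hc | heq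
  · obtain ⟨t0, ht0, hmov⟩ := hd
    have hCc : ∀ c ∈ C, d * c = c * d := fun c hc' => cyclic_two_centralized hCp hc ho hc'
    have hcC : t0⁻¹ * (d * t0 * d⁻¹) ∈ C := by
      refine ⟨Subgroup.mul_mem _ (Subgroup.inv_mem _ ht0) (Subgroup.Normal.conj_mem inferInstance t0 ht0 d),
        Subgroup.mem_centralizer_iff.2 fun f hf => ?_⟩
      have hd' : d⁻¹ * f * d = f := by
        rw [mul_assoc, ← hCc f (hfrC hf), inv_mul_cancel_left]
      have hf' : t0 * f * t0⁻¹ ∈ fr T := Subgroup.Normal.conj_mem inferInstance f hf t0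
      have h1 : (d * t0 * d⁻¹) * f * (d * t0 * d⁻¹)⁻¹ = t0 * f * t0⁻¹ := by
        calc (d * t0 * d⁻¹) * f * (d * t0 * d⁻¹)⁻¹
            = d * (t0 * (d⁻¹ * f * d) * t0⁻¹) * d⁻¹ := by group
          _ = t0 * f * t0⁻¹ := by rw [hd', hCc _ (hfrC hf'), mul_inv_cancel_right]
      calc f * (t0⁻¹ * (d * t0 * d⁻¹))
          = t0⁻¹ * (t0 * f * t0⁻¹) * (d * t0 * d⁻¹) := by group
        _ = t0⁻¹ * ((d * t0 * d⁻¹) * f * (d * t0 * d⁻¹)⁻¹) * (d * t0 * d⁻¹) := by rw [h1]
        _ = t0⁻¹ * (d * t0 * d⁻¹) * f := by group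
    obtain ⟨m, hm⟩ := pow_eq_one_of_mem hCp hcC
    have h1 := odd_stab (t := t0) ho (hCc _ hcC) (by group) hm
    rw [inv_mul_eq_one] at h1
    exact hmov (mul_inv_eq_iff_eq_mul.1 h1.symm)
  · have hfW : fr T = W := le_antisymm (heq ▸ hfrC) hWfr
    obtain ⟨-, hle⟩ := centralizer_four hT (hWfr.trans (fr_le T)) hW
      (fun t _ w hw => hWn.conj_mem w hw t)
    have h1 : Nat.card (T ⊓ Subgroup.centralizer (W : Set G) : Subgroup G) = 4 := by
      rw [← hfW]
      show Nat.card C = 4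
      rw [heq, hW]
    omega

/-- A central Frattini subgroup: commutators are involutions, squares multiply. -/
theorem comm_sq {T : Subgroup G} (hT : IsPGroup 2 T)
    (hfc : ∀ f ∈ fr T, ∀ t ∈ T, t * f = f * t) {x y : G} (hx : x ∈ T) (hy : y ∈ T) :
    ⁅x, y⁆ * ⁅x, y⁆ = 1 := by
  obtain ⟨c, hc⟩ : ∃ c, ⁅x, y⁆ = c := ⟨_, rfl⟩
  have hcc := hfc c (hc ▸ comm_mem_fr hT hx hy)
  have hx2 := hfc _ (sq_mem_fr hT hx) y hy
  rw [hc]
  have h1 : x * y * x⁻¹ = c * y := by
    rw [← hc, commutatorElement_def, inv_mul_cancel_right]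
  have h2 : c * c * y = y := by
    calc c * c * y = c * (x * y * x⁻¹) := by rw [h1, mul_assoc]
      _ = (c * x) * y * x⁻¹ := by group
      _ = (x * c) * y * x⁻¹ := by rw [hcc x hx]
      _ = x * (x * y * x⁻¹) * x⁻¹ := by rw [h1]; group
      _ = (x ^ 2 * y) * (x ^ 2)⁻¹ := by rw [pow_two]; group
      _ = y := by rw [← hx2, mul_inv_cancel_right]
  exact mul_eq_right.1 h2

theorem mul_sq {T : Subgroup G} (hT : IsPGroup 2 T)
    (hfc : ∀ f ∈ fr T, ∀ t ∈ T, t * f = f * t) {x y : G} (hx : x ∈ T) (hy : y ∈ T) :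
    (x * y) ^ 2 = x ^ 2 * y ^ 2 * ⁅y, x⁆ := by
  have h1 := hfc _ (comm_mem_fr hT hy hx)
  calc (x * y) ^ 2 = x * (⁅y, x⁆ * x * y) * y := by rw [commutatorElement_def, pow_two]; group
    _ = x * ((x * y) * ⁅y, x⁆) * y := by rw [mul_assoc ⁅y, x⁆ x y, h1 (x * y) (mul_mem hx hy)]
    _ = x * x * (y * (⁅y, x⁆ * y)) := by group
    _ = x * x * (y * (y * ⁅y, x⁆)) := by rw [h1 y hy]
    _ = x ^ 2 * y ^ 2 * ⁅y, x⁆ := by rw [pow_two, pow_two]; group

theorem frattini_eq_center {T : Subgroup G}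
    (h : fr T = T ⊓ Subgroup.centralizer (T : Set G)) : frattini T = Subgroup.center T := by
  ext x
  rw [mem_center_iff', ← h, fr]
  exact (Subgroup.mem_map_iff_mem T.subtype_injective).symm

theorem frattini_cyclic_false {T : Subgroup G} [T.Normal] (hT : IsPGroup 2 T)
    (hsm : ∀ N : Subgroup G, N.Normal → N ≤ T → N ≠ T → Small N)
    (hnc : ¬ IsMulCommutative T) (hfc : ∀ f ∈ fr T, ∀ t ∈ T, t * f = f * t)
    (h4 : 4 ≤ Nat.card (fr T)) (hcyc : IsCyclic (fr T)) : False := by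
  have hne : fr T ≠ T := fun h => hnc ⟨⟨fun a b => Subtype.ext
    (hfc b (h.symm ▸ b.2) a a.2)⟩⟩
  obtain ⟨W, -, hWfr, hW, -⟩ := exists_four_normal hT (hsm _ inferInstance (fr_le T) hne) h4
  let φ : T →* fr T :=
    { toFun := fun x => ⟨((x : G) ^ 2) ^ 2, pow_mem (sq_mem_fr hT x.2) 2⟩
      map_one' := Subtype.ext (by simp)
      map_mul' := fun x y => Subtype.ext (by
        simp only [Subgroup.coe_mul]
        have c1 : Commute ((x : G) ^ 2) ((y : G) ^ 2) :=
          hfc _ (sq_mem_fr hT y.2) _ (pow_mem x.2 2)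
        have c2 : Commute ((x : G) ^ 2 * (y : G) ^ 2) ⁅(y : G), (x : G)⁆ :=
          hfc _ (comm_mem_fr hT y.2 x.2) _ (mul_mem (pow_mem x.2 2) (pow_mem y.2 2))
        rw [mul_sq hT hfc x.2 y.2, c2.mul_pow, c1.mul_pow, pow_two ⁅(y : G), (x : G)⁆,
          comm_sq hT hfc y.2 x.2, mul_one]) }
  set K := φ.ker.map T.subtype with hKd
  have hK : ∀ g, g ∈ K ↔ g ∈ T ∧ (g ^ 2) ^ 2 = 1 := fun g => by
    constructor
    · rintro ⟨x, hx, rfl⟩
      exact ⟨x.2, congrArg Subtype.val hx⟩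
    · rintro ⟨hg, h⟩
      exact ⟨⟨g, hg⟩, Subtype.ext h, rfl⟩
  have hKn : K.Normal := ⟨fun n hn g => by
    rw [hK] at hn ⊢
    refine ⟨Subgroup.Normal.conj_mem inferInstance n hn.1 g, ?_⟩
    rw [conj_pow, conj_pow, hn.2, mul_one, mul_inv_cancel]⟩
  have hKT : K ≤ T := Subgroup.map_subtype_le _
  have hKne : K ≠ T := by
    intro hKT'
    let M : Subgroup G :=
      { carrier := {f | f ∈ fr T ∧ f * f = 1}
        one_mem' := ⟨one_mem _, one_mul 1⟩
        mul_mem' := by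
          rintro a b ⟨ha, ha2⟩ ⟨hb, hb2⟩
          refine ⟨mul_mem ha hb, ?_⟩
          have h1 : b * a = a * b := hfc a ha b (fr_le T hb)
          rw [mul_assoc, ← mul_assoc b a b, h1, mul_assoc a b b, hb2, mul_one, ha2]
        inv_mem' := by
          rintro a ⟨ha, ha2⟩
          exact ⟨inv_mem ha, by rw [← mul_inv_rev, ha2, inv_one]⟩ }
    have hle : fr T ≤ M := by
      refine fr_le_of hT (fun t ht f hf => ?_) fun t ht => ⟨sq_mem_fr hT ht, ?_⟩
      · rw [hfc f hf.1 t ht, mul_inv_cancel_right]; exact hf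
      · rw [← pow_two]
        exact ((hK t).1 (hKT'.symm ▸ ht)).2
    obtain ⟨g, hg⟩ := hcyc.exists_generator
    have h1 : orderOf g ≤ 2 := Nat.le_of_dvd two_pos (orderOf_dvd_of_pow_eq_one
      (Subtype.ext (by rw [Subgroup.coe_pow, pow_two]; exact (hle g.2).2)))
    rw [orderOf_eq_card_of_forall_mem_zpowers hg] at h1
    omega
  have hWc : W ≤ Subgroup.centralizer (K : Set G) := fun w hw =>
    Subgroup.mem_centralizer_iff.2 fun k hk => hfc w (hWfr hw) k (hKT hk)
  have hWK : W ≤ K := fun w hw => by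
    rw [hK]
    refine ⟨fr_le T (hWfr hw), ?_⟩
    rw [← pow_mul]
    exact orderOf_dvd_iff_pow_eq_one.1 ((W.orderOf_dvd_natCard hw).trans (by rw [hW]))
  have hKW : K = W := by
    rcases small_central_four (hT.to_le hKT) (hsm K hKn hKT hKne) hWK hW hWc with hc | h
    · obtain ⟨g, hg⟩ := hc.exists_generator
      have h1 : orderOf g ≤ 4 := Nat.le_of_dvd (by norm_num) (orderOf_dvd_of_pow_eq_one
        (Subtype.ext (by
          rw [Subgroup.coe_pow, show (4 : ℕ) = 2 * 2 from rfl, pow_mul]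
          exact ((hK g).1 g.2).2)))
      rw [orderOf_eq_card_of_forall_mem_zpowers hg] at h1
      exact (Subgroup.eq_of_le_of_card_ge hWK (by omega)).symm
    · exact h
  refine hnc (φ.isMulCommutative_of_isCyclic_of_ker_le_center fun x hx => ?_)
  have h1 : (x : G) ∈ fr T := hWfr (hKW ▸ ⟨x, hx, rfl⟩)
  exact Subgroup.mem_center_iff.2 fun y => Subtype.ext (hfc _ h1 y y.2)

/-- A Frattini subgroup of order at least four. -/
theorem big_frattini {T : Subgroup G} [T.Normal] (hT : IsPGroup 2 T)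
    (hsm : ∀ N : Subgroup G, N.Normal → N ≤ T → N ≠ T → Small N) (h16 : 16 ≤ Nat.card T)
    (hnc : ¬ IsMulCommutative T)
    {d : G} (ho : (orderOf d).Coprime 2) (hd : ∃ t ∈ T, d * t ≠ t * d)
    (h4 : 4 ≤ Nat.card (fr T)) :
    Cfsg.IsSpecial 2 T ∧ Nat.card (Subgroup.center T) = 4 := by
  have hfc := fr_central hT hsm h16 ho hd h4
  have hne : fr T ≠ T := fun h => hnc ⟨⟨fun a b => Subtype.ext
    (hfc b (h.symm ▸ b.2) a a.2)⟩⟩
  have hncyc : ¬ IsCyclic (fr T) := frattini_cyclic_false hT hsm hnc hfc h4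
  obtain ⟨W, -, hWfr, hW, hor⟩ := exists_four_normal hT (hsm _ inferInstance (fr_le T) hne) h4
  have hfW : fr T = W := hor.resolve_left hncyc
  have hf4 : Nat.card (fr T) = 4 := by rw [hfW, hW]
  have hfsq : ∀ f ∈ fr T, f * f = 1 := fun f hf => by
    have h2 : orderOf f ∣ 2 := by
      have h1 := (fr T).orderOf_dvd_natCard hf
      rw [hf4] at h1
      obtain ⟨i, hi, hio⟩ := (Nat.dvd_prime_pow Nat.prime_two).1 (show orderOf f ∣ 2 ^ 2 from h1)
      rcases Nat.lt_or_ge i 2 with h | h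
      · rw [hio]
        exact (pow_dvd_pow 2 (show i ≤ 1 by omega)).trans (by norm_num)
      · exfalso
        apply hncyc
        refine isCyclic_of_orderOf_eq_card (⟨f, hf⟩ : fr T) ?_
        rw [Subgroup.orderOf_mk, hio, hf4, show i = 2 by omega]
        norm_num
    rw [← pow_two]
    exact orderOf_dvd_iff_pow_eq_one.1 h2
  set Z := T ⊓ Subgroup.centralizer (T : Set G) with hZd
  have hfZ : fr T ≤ Z := fun f hf => ⟨fr_le T hf, Subgroup.mem_centralizer_iff.2 (hfc f hf)⟩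
  have hZne : Z ≠ T := fun h => hnc ⟨⟨fun a b => Subtype.ext
    (Subgroup.mem_centralizer_iff.1 (show (b : G) ∈ Z from h.symm ▸ b.2).2 a a.2)⟩⟩
  have hcl : ∀ Y : Subgroup G, Y.Normal → Y ≤ T → Y ≠ T → fr T ≤ Y → Y = fr T := by
    intro Y hYn hYT hYne hfY
    rcases small_central_four (hT.to_le hYT) (hsm Y hYn hYT hYne) hfY hf4
      (fun w hw => Subgroup.mem_centralizer_iff.2 fun y hy => hfc w hw y (hYT hy)) with hc | h
    · haveI := hc
      exact absurd (isCyclic_of_injective (Subgroup.inclusion hfY)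
        (Subgroup.inclusion_injective hfY)) hncyc
    · exact h
  have hZfr : Z = fr T := hcl Z inferInstance inf_le_left hZne hfZ
  refine ⟨?_, ?_⟩
  swap
  · rw [card_center_eq, ← hZd, hZfr, hf4]
  have hfrat : frattini T = Subgroup.center T := frattini_eq_center hZfr.symm
  refine ⟨hT, hfrat, ?_⟩
  -- the derived subgroup
  set D := (commutator T).map T.subtype with hDd
  haveI hDn : D.Normal := by rw [hDd]; infer_instance
  have hDfr : D ≤ fr T := Subgroup.map_mono (CfsgLib.PGroup.commutator_le_frattini hT)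
  have hDc : ∀ x y, x ∈ T → y ∈ T → ⁅x, y⁆ ∈ D := fun x y hx hy =>
    ⟨⁅(⟨x, hx⟩ : T), ⟨y, hy⟩⁆,
      Subgroup.commutator_mem_commutator (Subgroup.mem_top _) (Subgroup.mem_top _), rfl⟩
  suffices hD : D = fr T by
    exact (Subgroup.map_injective T.subtype_injective hD).trans hfrat
  by_contra hD
  have hD2 : Nat.card D = 2 := by
    have h1 := Subgroup.card_dvd_of_le hDfr
    rw [hf4] at h1
    obtain ⟨i, hi, hio⟩ := (Nat.dvd_prime_pow Nat.prime_two).1 (show Nat.card D ∣ 2 ^ 2 from h1)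
    have h2 : i ≠ 2 := fun h => hD (Subgroup.eq_of_le_of_card_ge hDfr (by rw [hio, hf4, h]; norm_num))
    have h3 : i ≠ 0 := fun h => hnc ⟨⟨fun a b => Subtype.ext
      (commutatorElement_eq_one_iff_mul_comm.1 (Subgroup.mem_bot.1
        (Subgroup.eq_bot_of_card_eq D (by rw [hio, h, pow_zero]) ▸ hDc _ _ a.2 b.2)))⟩⟩
    rw [hio, show i = 1 by omega, pow_one]
  let Y : Subgroup G :=
    { carrier := {g | g ∈ T ∧ g ^ 2 ∈ D}
      one_mem' := ⟨one_mem T, by rw [one_pow]; exact one_mem D⟩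
      mul_mem' := by
        rintro a b ⟨ha, ha'⟩ ⟨hb, hb'⟩
        refine ⟨mul_mem ha hb, ?_⟩
        rw [mul_sq hT hfc ha hb]
        exact mul_mem (mul_mem ha' hb') (hDc b a hb ha)
      inv_mem' := by
        rintro a ⟨ha, ha'⟩
        exact ⟨inv_mem ha, by rw [inv_pow]; exact inv_mem ha'⟩ }
  have hYn : Y.Normal := ⟨fun n hn g => ⟨Subgroup.Normal.conj_mem inferInstance n hn.1 g, by
    rw [conj_pow]; exact hDn.conj_mem _ hn.2 g⟩⟩
  have hYT : Y ≤ T := fun g hg => hg.1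
  have hYne : Y ≠ T := fun h => hD (le_antisymm hDfr (fr_le_of hT
    (fun t _ n hn => hDn.conj_mem n hn t)
    fun t ht => (show t ∈ Y from h.symm ▸ ht).2))
  have hfY : fr T ≤ Y := fun f hf => ⟨fr_le T hf, by
    rw [pow_two, hfsq f hf]; exact one_mem D⟩
  have hYfr : Y = fr T := hcl Y hYn hYT hYne hfY
  have hidx : (D.subgroupOf (fr T)).index = 2 := by
    have h1 := (D.subgroupOf (fr T)).card_mul_index
    rw [Nat.card_congr (Subgroup.subgroupOfEquivOfLe hDfr).toEquiv, hD2, hf4] at h1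
    omega
  have hle : Nat.card T ≤ 2 * Nat.card (fr T) := by
    refine card_le_two_mul (fr_le T) fun x hx hxW y hy hyW => ?_
    rw [← hYfr]
    refine ⟨mul_mem (inv_mem hx) hy, ?_⟩
    rw [mul_sq hT hfc (inv_mem hx) hy]
    refine mul_mem ?_ (hDc _ _ hy (inv_mem hx))
    have hxD : x ^ 2 ∉ D := fun h => hxW (hYfr ▸ (show x ∈ Y from ⟨hx, h⟩))
    have hyD : y ^ 2 ∉ D := fun h => hyW (hYfr ▸ (show y ∈ Y from ⟨hy, h⟩))
    exact (Subgroup.mul_mem_iff_of_index_two hidx (a := ⟨_, sq_mem_fr hT (inv_mem hx)⟩)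
      (b := ⟨_, sq_mem_fr hT hy⟩)).2
      ⟨fun h => absurd (show x ^ 2 ∈ D by
        have h' : x⁻¹ ^ 2 ∈ D := h
        rwa [inv_pow, inv_mem_iff] at h') hxD,
       fun h => absurd (show y ^ 2 ∈ D from h) hyD⟩
  omega

end CfsgLib.NoAbEight
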